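import Mathlib

set_option autoImplicit false

/-!
The Baer sum on a group of class at most two whose commutators have odd order: with `c` acting as
"one half" on commutators, `x ⊕ y = x * y * ⁅y, x⁆ ^ c` is commutative and associative, and every
automorphism is additive for it.  The "norm" of a finite group of automorphisms built from it.
-/

namespace Cfsg.Agent.Lib.Helper24.Baer

open scoped commutatorElement

/-- Commutators are central and `c` acts as one half on them. -/
class BaerData (H : Type*) [Group H] (c : ℕ) : Prop where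
  central : ∀ x y z : H, ⁅x, y⁆ * z = z * ⁅x, y⁆
  half : ∀ x y : H, ⁅x, y⁆ ^ (2 * c) = ⁅x, y⁆

variable {H : Type*} [Group H]

/-- The Baer sum. -/
def bop (c : ℕ) (x y : H) : H := x * y * ⁅y, x⁆ ^ c

theorem bop_central (c : ℕ) (x z : H) (hz : ∀ g : H, z * g = g * z) : bop c x z = x * z := by
  unfold bop
  have h : ⁅z, x⁆ = 1 := by
    rw [commutatorElement_eq_one_iff_commute]
    exact hz x
  rw [h, one_pow, mul_one]

theorem bop_one_one (c : ℕ) : bop c (1 : H) 1 = 1 := by
  simp [bop]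

theorem bop_comm (c : ℕ) [BaerData H c] (x y : H) : bop c x y = bop c y x := by
  unfold bop
  have hk := BaerData.central (c := c) x y
  have hh := BaerData.half (c := c) x y
  have h1 : x * y = ⁅x, y⁆ * (y * x) := by rw [commutatorElement_def]; group
  have h2 : ⁅y, x⁆ = ⁅x, y⁆⁻¹ := (commutatorElement_inv x y).symm
  rw [h2, h1, inv_pow, hk (y * x), mul_assoc (y * x)]
  congr 1
  rw [mul_inv_eq_iff_eq_mul, ← pow_add, ← two_mul]
  exact hh.symm

theorem comm_mul_right (c : ℕ) [BaerData H c] (z x y : H) : ⁅z, x * y⁆ = ⁅z, x⁆ * ⁅z, y⁆ := by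
  have h : ⁅z, x * y⁆ = ⁅z, x⁆ * (x * ⁅z, y⁆ * x⁻¹) := by
    simp only [commutatorElement_def]; group
  rw [h, ← BaerData.central (c := c) z y x, mul_inv_cancel_right]

theorem comm_mul_left (c : ℕ) [BaerData H c] (y z x : H) : ⁅y * z, x⁆ = ⁅y, x⁆ * ⁅z, x⁆ := by
  have h : ⁅y * z, x⁆ = (y * ⁅z, x⁆ * y⁻¹) * ⁅y, x⁆ := by
    simp only [commutatorElement_def]; group
  rw [h, ← BaerData.central (c := c) z x y, mul_inv_cancel_right,
    BaerData.central (c := c) z x ⁅y, x⁆]

theorem comm_pow_central (c : ℕ) [BaerData H c] (x y : H) (n : ℕ) (g : H) :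
    ⁅x, y⁆ ^ n * g = g * ⁅x, y⁆ ^ n :=
  (Commute.pow_left (BaerData.central (c := c) x y g) n).eq

theorem central_rearrange (x y z a b d : H) (ha : ∀ g : H, a * g = g * a)
    (hd : ∀ g : H, d * g = g * d) :
    x * y * a * z * (b * d) = x * (y * z * d) * (a * b) := by
  have e1 : x * y * a * z * (b * d) = x * (y * (z * (b * (d * a)))) := by
    simp only [mul_assoc]
    rw [ha (z * (b * d))]
    simp only [mul_assoc]
  have e2 : x * (y * z * d) * (a * b) = x * (y * (z * (b * (d * a)))) := by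
    simp only [mul_assoc]
    rw [hd (a * b)]
    simp only [mul_assoc]
    rw [ha (b * d)]
    simp only [mul_assoc]
  rw [e1, e2]

theorem bop_assoc (c : ℕ) [BaerData H c] (x y z : H) :
    bop c (bop c x y) z = bop c x (bop c y z) := by
  unfold bop
  have c1 : ∀ g : H, ⁅y, x⁆ ^ c * g = g * ⁅y, x⁆ ^ c := comm_pow_central c y x c
  have c3 : ∀ g : H, ⁅z, y⁆ ^ c * g = g * ⁅z, y⁆ ^ c := comm_pow_central c z y c
  have hL : ⁅z, x * y * ⁅y, x⁆ ^ c⁆ ^ c = ⁅z, x⁆ ^ c * ⁅z, y⁆ ^ c := by
    rw [← c1 (x * y), Cfsg.Agent.Lib.Helper24.Baer.comm_mul_right c z (⁅y, x⁆ ^ c) (x * y)]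
    have h0 : ⁅z, ⁅y, x⁆ ^ c⁆ = 1 := by
      rw [commutatorElement_eq_one_iff_commute]
      exact (c1 z).symm
    rw [h0, one_mul, comm_mul_right c z x y]
    exact Commute.mul_pow (BaerData.central (c := c) z x ⁅z, y⁆) c
  have hR : ⁅y * z * ⁅z, y⁆ ^ c, x⁆ ^ c = ⁅y, x⁆ ^ c * ⁅z, x⁆ ^ c := by
    rw [comm_mul_left c (y * z) (⁅z, y⁆ ^ c) x]
    have h0 : ⁅⁅z, y⁆ ^ c, x⁆ = 1 := by
      rw [commutatorElement_eq_one_iff_commute]
      exact c3 x
    rw [h0, mul_one, comm_mul_left c y z x]
    exact Commute.mul_pow (BaerData.central (c := c) y x ⁅z, x⁆) c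
  rw [hL, hR]
  exact central_rearrange x y z (⁅y, x⁆ ^ c) (⁅z, x⁆ ^ c) (⁅z, y⁆ ^ c) c1 c3

instance (c : ℕ) [BaerData H c] : Std.Commutative (bop (H := H) c) := ⟨bop_comm c⟩

instance (c : ℕ) [BaerData H c] : Std.Associative (bop (H := H) c) := ⟨bop_assoc c⟩

theorem map_bop (c : ℕ) (σ : MulAut H) (x y : H) : σ (bop c x y) = bop c (σ x) (σ y) := by
  simp [bop, map_commutatorElement]

/-- The Baer norm of a finite group of automorphisms. -/
noncomputable def norm (c : ℕ) [BaerData H c] {Q : Type*} [Group Q] [Fintype Q]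
    (φ : Q →* MulAut H) (x : H) : H :=
  Finset.univ.fold (bop c) 1 (fun q => φ q x)

theorem norm_fixed (c : ℕ) [BaerData H c] {Q : Type*} [Group Q] [Fintype Q]
    (φ : Q →* MulAut H) (x : H) (q₀ : Q) : φ q₀ (norm c φ x) = norm c φ x := by
  unfold norm
  rw [← Finset.fold_hom (map_bop c (φ q₀)), map_one]
  have h : (fun q => φ q₀ (φ q x)) = (fun q => φ q x) ∘ (Equiv.mulLeft q₀) := by
    funext q
    simp [map_mul]
  rw [h]
  have key := Finset.fold_map (op := bop c) (b := 1) (f := fun q => φ q x)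
    (g := (Equiv.mulLeft q₀).toEmbedding) (s := Finset.univ)
  rw [Finset.map_univ_equiv] at key
  exact key.symm

theorem norm_equivariant (c : ℕ) [BaerData H c] {Q : Type*} [Group Q] [Fintype Q]
    (φ : Q →* MulAut H) (σ : MulAut H) (π : Q ≃ Q)
    (h : ∀ q y, σ (φ q y) = φ (π q) (σ y)) (x : H) : σ (norm c φ x) = norm c φ (σ x) := by
  unfold norm
  rw [← Finset.fold_hom (map_bop c σ), map_one]
  have h' : (fun q => σ (φ q x)) = (fun q => φ q (σ x)) ∘ π := by
    funext q
    exact h q x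
  rw [h']
  have key := Finset.fold_map (op := bop c) (b := 1) (f := fun q => φ q (σ x))
    (g := π.toEmbedding) (s := Finset.univ)
  rw [Finset.map_univ_equiv] at key
  exact key.symm

theorem norm_mul_central (c : ℕ) [BaerData H c] {Q : Type*} [Group Q] [Fintype Q]
    (φ : Q →* MulAut H) (x z : H) (hz : ∀ g : H, z * g = g * z) (hfix : ∀ q, φ q z = z) :
    norm c φ (x * z) = norm c φ x * z ^ Fintype.card Q := by
  unfold norm
  have h1 : ∀ q, φ q (x * z) = bop c (φ q x) z := by
    intro q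
    rw [map_mul, hfix, bop_central c _ z hz]
  have h3 : ∀ s : Finset Q, s.fold (bop c) 1 (fun _ => z) = z ^ s.card := by
    classical
    intro s
    induction s using Finset.induction_on with
    | empty => simp
    | insert a s ha ih =>
      rw [Finset.fold_insert ha, ih, Finset.card_insert_of_notMem ha, bop_comm,
        bop_central c _ z hz, pow_succ]
  have hzn : ∀ (n : ℕ) (g : H), z ^ n * g = g * z ^ n :=
    fun n g => (Commute.pow_left (hz g) n).eq
  calc Finset.univ.fold (bop c) 1 (fun q => φ q (x * z))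
      = Finset.univ.fold (bop c) (bop c 1 1) (fun q => bop c (φ q x) z) := by
        rw [bop_one_one]
        exact Finset.fold_congr (fun q _ => h1 q)
    _ = bop c (Finset.univ.fold (bop c) 1 (fun q => φ q x))
          (Finset.univ.fold (bop c) 1 (fun _ => z)) := Finset.fold_op_distrib
    _ = Finset.univ.fold (bop c) 1 (fun q => φ q x) * z ^ Fintype.card Q := by
        rw [h3, Finset.card_univ, bop_central c _ _ (hzn _)]

end Cfsg.Agent.Lib.Helper24.Baer
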