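import Mathlib
import Cfsg.Agent.Lib.Helper62.Wielandt
import Cfsg.Agent.Lib.Helper9.Zip

/-!
A generalized zipper lemma.

* `zp_all` : if `A` has normal closure `G` and is subnormal in every maximal subgroup containing
  it except possibly one maximal subgroup `M`, then `M` is the only maximal subgroup containing
  `A`.
* `gen_zipper` : if `A ≠ G` has normal closure `G` and the proper subgroups `H ≥ A` with
  `⟨A^H⟩ = H` do not generate `G`, then `A` lies in a unique maximal subgroup.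
-/

set_option autoImplicit false

namespace Cfsg.Agent.Lib.Helper24.GenZipper

open Subgroup
open scoped Pointwise
open Cfsg.Agent.Lib.Helper62 Cfsg.Agent.Lib.Helper9

universe u

variable {G : Type u} [Group G]

theorem conj_mul_smul (g h : G) (A : Subgroup G) :
    MulAut.conj (g * h) • A = MulAut.conj g • MulAut.conj h • A := by
  rw [map_mul, mul_smul]

theorem conj_one_smul (A : Subgroup G) : MulAut.conj (1 : G) • A = A := by
  rw [map_one, one_smul]

theorem conj_inv_smul_smul (g : G) (A : Subgroup G) :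
    MulAut.conj g⁻¹ • MulAut.conj g • A = A := by
  rw [map_inv, inv_smul_smul]

theorem conj_smul_inv_smul (g : G) (A : Subgroup G) :
    MulAut.conj g • MulAut.conj g⁻¹ • A = A := by
  rw [map_inv, smul_inv_smul]

theorem isCoatom_smul (φ : MulAut G) {M : Subgroup G} (hM : IsCoatom M) : IsCoatom (φ • M) := by
  let e : Subgroup G ≃o Subgroup G :=
    { toFun := fun X => φ • X
      invFun := fun X => φ⁻¹ • X
      left_inv := fun X => inv_smul_smul φ X
      right_inv := fun X => smul_inv_smul φ X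
      map_rel_iff' := Subgroup.pointwise_smul_le_pointwise_smul_iff }
  exact (OrderIso.isCoatom_iff e M).mpr hM

theorem smul_le_normalizer (φ : MulAut G) {B C : Subgroup G}
    (h : B ≤ normalizer (C : Set G)) : φ • B ≤ normalizer ((φ • C : Subgroup G) : Set G) := by
  rw [Subgroup.pointwise_smul_def, Subgroup.pointwise_smul_def]
  exact (Subgroup.map_mono h).trans (Subgroup.le_normalizer_map _)

theorem smul_mem_self {M : Subgroup G} {m : G} (hm : m ∈ M) : MulAut.conj m • M = M :=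
  (Wielandt.conj_smul_eq_iff m M).mpr (Subgroup.le_normalizer hm)

theorem isSubnormal_of_le {A H L : Subgroup G} (hHL : H ≤ L)
    (h : (A.subgroupOf L).IsSubnormal) : (A.subgroupOf H).IsSubnormal := by
  have : A.subgroupOf H = (A.subgroupOf L).comap (Subgroup.inclusion hHL) := by
    ext y
    rw [Subgroup.mem_subgroupOf, Subgroup.mem_comap, Subgroup.mem_subgroupOf]
    rfl
  rw [this]
  exact h.comap _

theorem not_isSubnormal {A : Subgroup G} (hA : normalClosure (A : Set G) = ⊤) (hne : A ≠ ⊤) :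
    ¬ A.IsSubnormal := by
  intro h
  obtain ⟨K, hK, hAK, hKlt⟩ := h.exists_normal_and_le_and_lt_top_of_ne hne
  have : normalClosure (A : Set G) ≤ K := Subgroup.normalClosure_le_normal hAK
  rw [hA, top_le_iff] at this
  exact hKlt.ne this

/-- `M` is a maximal subgroup containing `A`, and `A` is subnormal in every other maximal
subgroup containing it. -/
def Hyp (A M : Subgroup G) : Prop :=
  IsCoatom M ∧ A ≤ M ∧
    ∀ K : Subgroup G, IsCoatom K → A ≤ K → K ≠ M → (A.subgroupOf K).IsSubnormal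

/-- The conclusion of the generalized zipper lemma for `A`. -/
def ZP (A : Subgroup G) : Prop :=
  ∀ M : Subgroup G, normalClosure (A : Set G) = ⊤ → Hyp A M →
    ∀ K : Subgroup G, IsCoatom K → A ≤ K → K = M

theorem hyp_smul (g : G) {A M : Subgroup G} (h : Hyp A M) :
    Hyp (MulAut.conj g • A) (MulAut.conj g • M) := by
  obtain ⟨hM, hAM, hK⟩ := h
  refine ⟨isCoatom_smul _ hM, Subgroup.pointwise_smul_le_pointwise_smul_iff.mpr hAM, ?_⟩
  intro K hKc hAK hne
  have e : MulAut.conj g • ((MulAut.conj g)⁻¹ • K) = K := smul_inv_smul _ _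
  have h1 : A ≤ (MulAut.conj g)⁻¹ • K := by
    rw [← Subgroup.pointwise_smul_le_pointwise_smul_iff (a := MulAut.conj g), e]
    exact hAK
  have h2 : (MulAut.conj g)⁻¹ • K ≠ M := by
    intro h3
    apply hne
    rw [← e, h3]
  have h3 := Wielandt.subgroupOf_smul_isSubnormal (MulAut.conj g)
    (hK _ (isCoatom_smul _ hKc) h1 h2)
  rwa [e] at h3

theorem normalClosure_smul (g : G) {A : Subgroup G} (h : normalClosure (A : Set G) = ⊤) :
    normalClosure ((MulAut.conj g • A : Subgroup G) : Set G) = ⊤ := by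
  rw [eq_top_iff, ← h]
  apply Subgroup.normalClosure_le_normal
  intro a ha
  have h1 : MulAut.conj g • a ∈ MulAut.conj g • A := Subgroup.smul_mem_pointwise_smul a _ A ha
  have h2 : MulAut.conj g • a ∈ normalClosure ((MulAut.conj g • A : Subgroup G) : Set G) :=
    Subgroup.subset_normalClosure h1
  have h3 := (Subgroup.normalClosure_normal
    (s := ((MulAut.conj g • A : Subgroup G) : Set G))).conj_mem _ h2 g⁻¹
  have e : g⁻¹ * (MulAut.conj g • a) * g⁻¹⁻¹ = a := by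
    rw [MulAut.smul_def, MulAut.conj_apply]; group
  rwa [e] at h3

theorem mem_of_smul_eq {A M : Subgroup G} (hA : normalClosure (A : Set G) = ⊤) (hM : IsCoatom M)
    (hAM : A ≤ M) {y : G} (hy : MulAut.conj y • M = M) : y ∈ M := by
  have h1 : y ∈ normalizer (M : Set G) := (Wielandt.conj_smul_eq_iff y M).mp hy
  rcases hM.le_iff.mp (Subgroup.le_normalizer : M ≤ normalizer (M : Set G)) with h | h
  · exfalso
    have hn : M.Normal := Subgroup.normalizer_eq_top_iff.mp h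
    have : normalClosure (A : Set G) ≤ M := Subgroup.normalClosure_le_normal hAM
    rw [hA, top_le_iff] at this
    exact hM.1 this
  · rw [h] at h1; exact h1

theorem normalizer_le {A M : Subgroup G} (hA : normalClosure (A : Set G) = ⊤) (h : Hyp A M)
    (hns : ¬ (A.subgroupOf M).IsSubnormal) : normalizer (A : Set G) ≤ M := by
  intro r hr
  have hrA : MulAut.conj r • A = A := (Wielandt.conj_smul_eq_iff r A).mpr hr
  apply mem_of_smul_eq hA h.1 h.2.1
  by_contra hne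
  have hc : IsCoatom (MulAut.conj r • M) := isCoatom_smul _ h.1
  have hAK : A ≤ MulAut.conj r • M := by
    have : MulAut.conj r • A ≤ MulAut.conj r • M :=
      Subgroup.pointwise_smul_le_pointwise_smul_iff.mpr h.2.1
    rwa [hrA] at this
  have h1 := h.2.2 _ hc hAK hne
  have h2 := Wielandt.subgroupOf_smul_isSubnormal (MulAut.conj r)⁻¹ h1
  rw [inv_smul_smul] at h2
  have hrA' : (MulAut.conj r)⁻¹ • A = A := by
    calc (MulAut.conj r)⁻¹ • A = (MulAut.conj r)⁻¹ • (MulAut.conj r • A) := by rw [hrA]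
      _ = A := inv_smul_smul _ _
  rw [hrA'] at h2
  exact hns h2


theorem smul_le_of_mem {A M : Subgroup G} {m : G} (hm : m ∈ M) (hAM : A ≤ M) :
    MulAut.conj m • A ≤ M := by
  have : MulAut.conj m • A ≤ MulAut.conj m • M :=
    Subgroup.pointwise_smul_le_pointwise_smul_iff.mpr hAM
  rwa [smul_mem_self hm] at this

/-- `C` is a conjugate of `A`. -/
def IsCj (A C : Subgroup G) : Prop := ∃ g : G, C = MulAut.conj g • A

theorem isCj_refl (A : Subgroup G) : IsCj A A := ⟨1, (conj_one_smul A).symm⟩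

theorem isCj_smul {A C : Subgroup G} (g : G) (h : IsCj A C) : IsCj A (MulAut.conj g • C) := by
  obtain ⟨a, rfl⟩ := h
  exact ⟨g * a, (conj_mul_smul g a A).symm⟩

section Finite

variable [Finite G]

theorem key {A M : Subgroup G} (n : ℕ) (hn : Nat.card A = n)
    (IH : ∀ T : Subgroup G, n < Nat.card T → ZP T)
    (hA : normalClosure (A : Set G) = ⊤) (h : Hyp A M)
    (S : Set G) (T : Subgroup G) (hT : T = sSup ((fun g => MulAut.conj g • A) '' S))
    (hcard : n < Nat.card T) {L₁ L₂ : Subgroup G} (hL₁ : IsCoatom L₁) (hL₂ : IsCoatom L₂)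
    (hne : L₁ ≠ L₂) (h1 : T ≤ L₁) (h2 : T ≤ L₂) :
    ∃ g₁ ∈ S, ∃ g₂ ∈ S, MulAut.conj g₁ • M ≠ MulAut.conj g₂ • M ∧
      T ≤ MulAut.conj g₁ • M ∧ T ≤ MulAut.conj g₂ • M := by
  by_contra hcon
  push Not at hcon
  have hSne : S.Nonempty := by
    by_contra hS
    rw [Set.not_nonempty_iff_eq_empty] at hS
    rw [hS, Set.image_empty, sSup_empty] at hT
    rw [hT, Subgroup.card_bot] at hcard
    have := Nat.card_pos (α := A)
    omega
  have hle : ∀ g ∈ S, MulAut.conj g • A ≤ T := by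
    intro g hg
    rw [hT]
    exact le_sSup ⟨g, hg, rfl⟩
  have hTn : normalClosure (T : Set G) = ⊤ := by
    obtain ⟨g, hg⟩ := hSne
    rw [eq_top_iff, ← normalClosure_smul g hA]
    exact Subgroup.normalClosure_mono (SetLike.coe_subset_coe.mpr (hle g hg))
  have hsub : ∀ K : Subgroup G, IsCoatom K → T ≤ K → (∀ g ∈ S, K ≠ MulAut.conj g • M) →
      (T.subgroupOf K).IsSubnormal := by
    intro K hK hTK hKne
    rw [hT]
    apply Zip.subgroupOf_sSup_isSubnormal
    · rintro _ ⟨g, hg, rfl⟩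
      exact (hle g hg).trans hTK
    · rintro _ ⟨g, hg, rfl⟩
      exact (hyp_smul g h).2.2 K hK ((hle g hg).trans hTK) (hKne g hg)
  by_cases hex : ∃ g₁ ∈ S, T ≤ MulAut.conj g₁ • M
  · obtain ⟨g₁, hg₁, hTg₁⟩ := hex
    have hHyp : Hyp T (MulAut.conj g₁ • M) := by
      refine ⟨isCoatom_smul _ h.1, hTg₁, ?_⟩
      intro K hK hTK hKne
      apply hsub K hK hTK
      intro g hg hKg
      apply hcon g₁ hg₁ g hg (by rw [← hKg]; exact hKne.symm) hTg₁
      rw [← hKg]; exact hTK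
    have e1 := IH T hcard _ hTn hHyp L₁ hL₁ h1
    have e2 := IH T hcard _ hTn hHyp L₂ hL₂ h2
    exact hne (e1.trans e2.symm)
  · push Not at hex
    have hHyp : Hyp T L₁ := by
      refine ⟨hL₁, h1, ?_⟩
      intro K hK hTK hKne
      apply hsub K hK hTK
      intro g hg hKg
      apply hex g hg
      rw [← hKg]; exact hTK
    exact hne (IH T hcard _ hTn hHyp L₂ hL₂ h2).symm

theorem conj_eq_of_le {A M : Subgroup G} (n : ℕ) (hn : Nat.card A = n)
    (IH : ∀ T : Subgroup G, n < Nat.card T → ZP T)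
    (hA : normalClosure (A : Set G) = ⊤) (h : Hyp A M)
    {m : G} (hm : m ∈ M) {L : Subgroup G} (hL : IsCoatom L) (hLM : L ≠ M) (hAL : A ≤ L)
    (hmL : MulAut.conj m • A ≤ L) : MulAut.conj m • A = A := by
  by_contra hne
  have hlt : A < A ⊔ MulAut.conj m • A := by
    rw [lt_iff_le_and_ne]
    refine ⟨le_sup_left, fun e => hne (Wielandt.smul_eq_of_le ?_)⟩
    have h3 : MulAut.conj m • A ≤ A ⊔ MulAut.conj m • A := le_sup_right
    rwa [← e] at h3
  have hcard : n < Nat.card ↥(A ⊔ MulAut.conj m • A) := by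
    rw [← hn]; exact Wielandt.card_lt_of_lt hlt
  have hT : A ⊔ MulAut.conj m • A = sSup ((fun g => MulAut.conj g • A) '' {1, m}) := by
    rw [Set.image_pair, sSup_pair, conj_one_smul]
  have hmM : MulAut.conj m • A ≤ M := smul_le_of_mem hm h.2.1
  obtain ⟨g₁, hg₁, g₂, hg₂, hne', -, -⟩ := key n hn IH hA h {1, m} _ hT hcard hL h.1 hLM
    (sup_le hAL hmL) (sup_le h.2.1 hmM)
  have e : ∀ g ∈ ({1, m} : Set G), MulAut.conj g • M = M := by
    intro g hg
    rcases hg with rfl | rfl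
    · exact conj_one_smul M
    · exact smul_mem_self hm
  exact hne' ((e g₁ hg₁).trans (e g₂ hg₂).symm)

theorem inf_le_normalizer {A M : Subgroup G} (n : ℕ) (hn : Nat.card A = n)
    (IH : ∀ T : Subgroup G, n < Nat.card T → ZP T)
    (hA : normalClosure (A : Set G) = ⊤) (h : Hyp A M)
    {L : Subgroup G} (hL : IsCoatom L) (hLM : L ≠ M) (hAL : A ≤ L) :
    L ⊓ M ≤ normalizer (A : Set G) := by
  intro m hm
  rw [← Wielandt.conj_smul_eq_iff]
  exact conj_eq_of_le n hn IH hA h hm.2 hL hLM hAL (smul_le_of_mem hm.1 hAL)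

theorem pair {A M : Subgroup G} (n : ℕ) (hn : Nat.card A = n)
    (IH : ∀ T : Subgroup G, n < Nat.card T → ZP T)
    (hA : normalClosure (A : Set G) = ⊤) (h : Hyp A M)
    (g₁ g₂ : G) (hne : MulAut.conj g₁ • A ≠ MulAut.conj g₂ • A)
    {L₁ L₂ : Subgroup G} (hL₁ : IsCoatom L₁) (hL₂ : IsCoatom L₂) (hL : L₁ ≠ L₂)
    (h1 : MulAut.conj g₁ • A ⊔ MulAut.conj g₂ • A ≤ L₁)
    (h2 : MulAut.conj g₁ • A ⊔ MulAut.conj g₂ • A ≤ L₂) :
    MulAut.conj g₁ • M ≠ MulAut.conj g₂ • M ∧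
    MulAut.conj g₁ • A ⊔ MulAut.conj g₂ • A ≤ MulAut.conj g₁ • M ∧
    MulAut.conj g₁ • A ⊔ MulAut.conj g₂ • A ≤ MulAut.conj g₂ • M ∧
    MulAut.conj g₂ • A ≤ normalizer ((MulAut.conj g₁ • A : Subgroup G) : Set G) ∧
    MulAut.conj g₁ • A ≤ normalizer ((MulAut.conj g₂ • A : Subgroup G) : Set G) := by
  have hlt : MulAut.conj g₁ • A < MulAut.conj g₁ • A ⊔ MulAut.conj g₂ • A := by
    rw [lt_iff_le_and_ne]
    refine ⟨le_sup_left, fun e => hne ?_⟩
    have hle : MulAut.conj g₂ • A ≤ MulAut.conj g₁ • A := by rw [e]; exact le_sup_right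
    exact (Subgroup.eq_of_le_of_card_ge hle
      (by rw [Wielandt.card_smul, Wielandt.card_smul])).symm
  have hcard : n < Nat.card ↥(MulAut.conj g₁ • A ⊔ MulAut.conj g₂ • A) := by
    have := Wielandt.card_lt_of_lt hlt
    rwa [Wielandt.card_smul, hn] at this
  have hT : MulAut.conj g₁ • A ⊔ MulAut.conj g₂ • A
      = sSup ((fun g => MulAut.conj g • A) '' {g₁, g₂}) := by
    rw [Set.image_pair, sSup_pair]
  obtain ⟨a, ha, b, hb, hab, hTa, hTb⟩ :=
    key n hn IH hA h {g₁, g₂} _ hT hcard hL₁ hL₂ hL h1 h2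
  have main : MulAut.conj g₁ • M ≠ MulAut.conj g₂ • M ∧
      MulAut.conj g₁ • A ⊔ MulAut.conj g₂ • A ≤ MulAut.conj g₁ • M ∧
      MulAut.conj g₁ • A ⊔ MulAut.conj g₂ • A ≤ MulAut.conj g₂ • M := by
    rcases ha with rfl | rfl <;> rcases hb with rfl | rfl
    · exact absurd rfl hab
    · exact ⟨hab, hTa, hTb⟩
    · exact ⟨hab.symm, hTb, hTa⟩
    · exact absurd rfl hab
  refine ⟨main.1, main.2.1, main.2.2, ?_, ?_⟩
  · have := inf_le_normalizer (A := MulAut.conj g₁ • A) (M := MulAut.conj g₁ • M) n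
      (by rw [Wielandt.card_smul, hn]) IH (normalClosure_smul g₁ hA) (hyp_smul g₁ h)
      (isCoatom_smul (MulAut.conj g₂) h.1) main.1.symm (le_sup_left.trans main.2.2)
    exact (le_inf (le_sup_right.trans main.2.2) (le_sup_right.trans main.2.1)).trans this
  · have := inf_le_normalizer (A := MulAut.conj g₂ • A) (M := MulAut.conj g₂ • M) n
      (by rw [Wielandt.card_smul, hn]) IH (normalClosure_smul g₂ hA) (hyp_smul g₂ h)
      (isCoatom_smul (MulAut.conj g₁) h.1) main.1 (le_sup_right.trans main.2.1)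
    exact (le_inf (le_sup_left.trans main.2.1) (le_sup_left.trans main.2.2)).trans this

theorem pw {A M : Subgroup G} (n : ℕ) (hn : Nat.card A = n)
    (IH : ∀ T : Subgroup G, n < Nat.card T → ZP T)
    (hA : normalClosure (A : Set G) = ⊤) (h : Hyp A M)
    {L₁ L₂ : Subgroup G} (hL₁ : IsCoatom L₁) (hL₂ : IsCoatom L₂) (hL : L₁ ≠ L₂)
    {C₁ C₂ : Subgroup G} (hC₁ : IsCj A C₁) (hC₂ : IsCj A C₂)
    (h1 : C₁ ≤ L₁ ⊓ L₂) (h2 : C₂ ≤ L₁ ⊓ L₂) : C₂ ≤ normalizer (C₁ : Set G) := by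
  obtain ⟨g₁, rfl⟩ := hC₁
  obtain ⟨g₂, rfl⟩ := hC₂
  by_cases hne : MulAut.conj g₁ • A = MulAut.conj g₂ • A
  · rw [← hne]; exact Subgroup.le_normalizer
  · exact (pair n hn IH hA h g₁ g₂ hne hL₁ hL₂ hL
      (sup_le (h1.trans inf_le_left) (h2.trans inf_le_left))
      (sup_le (h1.trans inf_le_right) (h2.trans inf_le_right))).2.2.2.1

theorem zp_step (A : Subgroup G) (n : ℕ) (hn : Nat.card A = n)
    (IH : ∀ T : Subgroup G, n < Nat.card T → ZP T) : ZP A := by
  intro M₀ hA h K₀ hK₀ hAK₀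
  by_contra hK₀M
  have hAtop : A ≠ ⊤ := fun e => h.1.1 (top_le_iff.mp (e ▸ h.2.1))
  by_cases hsn : (A.subgroupOf M₀).IsSubnormal
  · have hall : ∀ H : Subgroup G, A ≤ H → H ≠ ⊤ → (A.subgroupOf H).IsSubnormal := by
      intro H hAH hH
      obtain ⟨K, hK, hHK⟩ := (eq_top_or_exists_le_coatom H).resolve_left hH
      by_cases hKM : K = M₀
      · exact isSubnormal_of_le (hKM ▸ hHK) hsn
      · exact isSubnormal_of_le hHK (h.2.2 K hK (hAH.trans hHK) hKM)
    obtain ⟨M, hM, hAM, huniq⟩ := Wielandt.zipper A hall (not_isSubnormal hA hAtop)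
    exact hK₀M ((huniq K₀ hK₀ hAK₀).trans (huniq M₀ h.1 h.2.1).symm)
  have hNA : normalizer (A : Set G) ≤ M₀ := normalizer_le hA h hsn
  obtain ⟨K, ⟨hK, hAK, hKM⟩, hKmax⟩ := Set.exists_max_image
    {K : Subgroup G | IsCoatom K ∧ A ≤ K ∧ K ≠ M₀} (fun K => Nat.card ↥(K ⊓ M₀))
    (Set.toFinite _) ⟨K₀, hK₀, hAK₀, hK₀M⟩
  have hsnK : (A.subgroupOf K).IsSubnormal := h.2.2 K hK hAK hKM
  have hKN : ¬ K ≤ normalizer (A : Set G) := by
    intro hle
    rcases hK.le_iff.mp (hle.trans hNA) with e | e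
    · exact h.1.1 e
    · exact hKM e.symm
  obtain ⟨x, hxK, hxne, hxN⟩ :=
    Wielandt.exists_conj_ne_le_normalizer_of_subgroupOf hAK hsnK hKN
  have hDK : MulAut.conj x • A ≤ K := smul_le_of_mem hxK hAK
  have hDM₀ : MulAut.conj x • A ≤ M₀ := hxN.trans hNA
  have p := pair n hn IH hA h 1 x (by rw [conj_one_smul]; exact hxne.symm) hK h.1 hKM
    (by rw [conj_one_smul]; exact sup_le hAK hDK) (by rw [conj_one_smul]; exact sup_le h.2.1 hDM₀)
  rw [conj_one_smul A, conj_one_smul M₀] at p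
  obtain ⟨hM₁ne, -, hsupM₁, -, hAND⟩ := p
  have hAM₁ : A ≤ MulAut.conj x • M₀ := le_sup_left.trans hsupM₁
  have hM₁c : IsCoatom (MulAut.conj x • M₀) := isCoatom_smul _ h.1
  have hxM₀ : x ∉ M₀ := fun hx => hM₁ne (smul_mem_self hx).symm
  have hDM₁ : MulAut.conj x • A ≤ MulAut.conj x • M₀ := le_sup_right.trans hsupM₁
  have hHypD : Hyp (MulAut.conj x • A) (MulAut.conj x • M₀) := hyp_smul x h
  have hDn : normalClosure ((MulAut.conj x • A : Subgroup G) : Set G) = ⊤ :=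
    normalClosure_smul x hA
  have hDns : ¬ ((MulAut.conj x • A).subgroupOf (MulAut.conj x • M₀)).IsSubnormal := by
    intro hs
    have h2 := Wielandt.subgroupOf_smul_isSubnormal (MulAut.conj x)⁻¹ hs
    rw [inv_smul_smul, inv_smul_smul] at h2
    exact hsn h2
  have hND : normalizer ((MulAut.conj x • A : Subgroup G) : Set G) ≤ MulAut.conj x • M₀ :=
    normalizer_le hDn hHypD hDns
  have hDsnM₀ : ((MulAut.conj x • A).subgroupOf M₀).IsSubnormal :=
    hHypD.2.2 M₀ h.1 hDM₀ hM₁ne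
  have hDcj : IsCj A (MulAut.conj x • A) := ⟨x, rfl⟩
  clear hHypD hDn hDns hsupM₁
  generalize hM₁ : MulAut.conj x • M₀ = M₁ at *
  generalize hD : MulAut.conj x • A = D at *
  have PW01 : ∀ C₁ C₂ : Subgroup G, IsCj A C₁ → IsCj A C₂ → C₁ ≤ M₀ ⊓ M₁ → C₂ ≤ M₀ ⊓ M₁ →
      C₂ ≤ normalizer (C₁ : Set G) :=
    fun C₁ C₂ h1 h2 h3 h4 => pw n hn IH hA h h.1 hM₁c hM₁ne h1 h2 h3 h4
  have PWK : ∀ C₁ C₂ : Subgroup G, IsCj A C₁ → IsCj A C₂ → C₁ ≤ K ⊓ M₀ → C₂ ≤ K ⊓ M₀ →
      C₂ ≤ normalizer (C₁ : Set G) :=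
    fun C₁ C₂ h1 h2 h3 h4 => pw n hn IH hA h hK h.1 hKM h1 h2 h3 h4
  have hAJ : A ≤ M₀ ⊓ M₁ := le_inf h.2.1 hAM₁
  have hDJ : D ≤ M₀ ⊓ M₁ := le_inf hDM₀ hDM₁
  have hDKM : D ≤ K ⊓ M₀ := le_inf hDK hDM₀
  have ha : ∀ m : G, m ∈ M₀ → MulAut.conj m • D ≤ normalizer (D : Set G) →
      MulAut.conj m • D ≤ M₀ ⊓ M₁ :=
    fun m hm hmD => le_inf (smul_le_of_mem hm hDM₀) (hmD.trans hND)
  have hb : ∀ m : G, m ∈ M₀ → MulAut.conj m • D ≤ normalizer (D : Set G) →
      MulAut.conj m⁻¹ • D ≤ normalizer (D : Set G) := by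
    intro m hm hmD
    have h1 : D ≤ normalizer ((MulAut.conj m • D : Subgroup G) : Set G) :=
      PW01 _ _ (isCj_smul m hDcj) hDcj (ha m hm hmD) hDJ
    have h2 := smul_le_normalizer (MulAut.conj m⁻¹) h1
    rwa [conj_inv_smul_smul] at h2
  have h9 : ∀ m : G, m ∈ M₀ → MulAut.conj m • D ≤ normalizer (D : Set G) →
      MulAut.conj m⁻¹ • A = A := by
    intro m hm hmD
    have hmx : MulAut.conj (m * x) • A = MulAut.conj m • D := by rw [conj_mul_smul, hD]
    have hne : MulAut.conj (1 : G) • A ≠ MulAut.conj (m * x) • A := by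
      rw [conj_one_smul]
      intro e
      have h3 : m * x ∈ M₀ := hNA ((Wielandt.conj_smul_eq_iff _ _).mp e.symm)
      exact hxM₀ ((Subgroup.mul_mem_cancel_left M₀ hm).mp h3)
    have hJ := ha m hm hmD
    have p := pair n hn IH hA h 1 (m * x) hne h.1 hM₁c hM₁ne
      (by rw [conj_one_smul, hmx]; exact sup_le h.2.1 (hJ.trans inf_le_left))
      (by rw [conj_one_smul, hmx]; exact sup_le hAM₁ (hJ.trans inf_le_right))
    have h4 : A ≤ MulAut.conj (m * x) • M₀ := by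
      have h5 := p.2.2.1
      rw [conj_one_smul] at h5
      exact le_sup_left.trans h5
    rw [conj_mul_smul, hM₁] at h4
    have h5 : MulAut.conj m⁻¹ • A ≤ M₁ := by
      have h6 : MulAut.conj m⁻¹ • A ≤ MulAut.conj m⁻¹ • MulAut.conj m • M₁ :=
        Subgroup.pointwise_smul_le_pointwise_smul_iff.mpr h4
      rwa [conj_inv_smul_smul] at h6
    exact conj_eq_of_le n hn IH hA h (M₀.inv_mem hm) hM₁c hM₁ne.symm hAM₁ h5
  obtain ⟨E, hE⟩ : ∃ E : Subgroup G,
      E = sSup {C : Subgroup G | IsCj A C ∧ C ≤ M₀ ⊓ M₁} := ⟨_, rfl⟩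
  have hpres : ∀ y : G, MulAut.conj y⁻¹ • A ≤ M₀ ⊓ M₁ → MulAut.conj y⁻¹ • D ≤ M₀ ⊓ M₁ →
      y ∈ normalizer (E : Set G) := by
    intro y hyA hyD
    rw [hE]
    apply Zip.mem_normalizer_sSup
    rintro C ⟨hCcj, hCJ⟩
    refine ⟨isCj_smul y hCcj, le_inf ?_ ?_⟩
    · have h1 : C ≤ normalizer ((MulAut.conj y⁻¹ • A : Subgroup G) : Set G) :=
        PW01 _ _ (isCj_smul _ (isCj_refl A)) hCcj hyA hCJ
      have h2 := smul_le_normalizer (MulAut.conj y) h1
      rw [conj_smul_inv_smul] at h2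
      exact h2.trans hNA
    · have h1 : C ≤ normalizer ((MulAut.conj y⁻¹ • D : Subgroup G) : Set G) :=
        PW01 _ _ (isCj_smul _ hDcj) hCcj hyD hCJ
      have h2 := smul_le_normalizer (MulAut.conj y) h1
      rw [conj_smul_inv_smul] at h2
      exact h2.trans hND
  have hxE : x ∈ normalizer (E : Set G) := by
    have hxD : MulAut.conj x⁻¹ • D = A := by rw [← hD, conj_inv_smul_smul]
    apply hpres
    · have h1 : MulAut.conj x⁻¹ • A ≤ M₀ := by
        have h2 := smul_le_normalizer (MulAut.conj x⁻¹) hAND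
        rw [hxD] at h2
        exact h2.trans hNA
      have h3 : MulAut.conj x⁻¹ • A ≤ K := smul_le_of_mem (K.inv_mem hxK) hAK
      have h4 : MulAut.conj x⁻¹ • A ≤ normalizer (D : Set G) :=
        PWK _ _ hDcj (isCj_smul _ (isCj_refl A)) hDKM (le_inf h3 h1)
      exact le_inf h1 (h4.trans hND)
    · rw [hxD]; exact hAJ
  have hKME : K ⊓ M₀ ≤ normalizer (E : Set G) := by
    intro y hy
    have hyA : MulAut.conj y⁻¹ • A = A := by
      rw [Wielandt.conj_smul_eq_iff]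
      exact inf_le_normalizer n hn IH hA h hK hKM hAK ((K ⊓ M₀).inv_mem hy)
    apply hpres
    · rw [hyA]; exact hAJ
    · have h1 : MulAut.conj y⁻¹ • D ≤ K ⊓ M₀ := smul_le_of_mem ((K ⊓ M₀).inv_mem hy) hDKM
      have h2 : MulAut.conj y⁻¹ • D ≤ normalizer (D : Set G) :=
        PWK _ _ hDcj (isCj_smul _ hDcj) hDKM h1
      exact le_inf (h1.trans inf_le_right) (h2.trans hND)
  have hΘE : ∀ m : G, m ∈ M₀ → MulAut.conj m • D ≤ normalizer (D : Set G) →
      m ∈ normalizer (E : Set G) := by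
    intro m hm hmD
    apply hpres
    · rw [h9 m hm hmD]; exact hAJ
    · exact ha m⁻¹ (M₀.inv_mem hm) (hb m hm hmD)
  have hAE : A ≤ E := by rw [hE]; exact le_sSup ⟨isCj_refl A, hAJ⟩
  have hEM₀ : E ≤ M₀ := by
    rw [hE]; exact sSup_le (fun C hC => hC.2.trans inf_le_left)
  have hNE : normalizer (E : Set G) ≠ ⊤ := by
    intro e
    have hn' : E.Normal := Subgroup.normalizer_eq_top_iff.mp e
    have h1 : normalClosure (A : Set G) ≤ E := Subgroup.normalClosure_le_normal hAE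
    rw [hA] at h1
    exact h.1.1 (top_le_iff.mp (h1.trans hEM₀))
  obtain ⟨L, hL, hNL⟩ := (eq_top_or_exists_le_coatom _).resolve_left hNE
  have hLM : L ≠ M₀ := fun e => hxM₀ (e ▸ hNL hxE)
  have hAL : A ≤ L := hAE.trans (Subgroup.le_normalizer.trans hNL)
  have hLK : L ⊓ M₀ = K ⊓ M₀ := by
    have h1 : K ⊓ M₀ ≤ L ⊓ M₀ := le_inf (hKME.trans hNL) inf_le_right
    exact (Subgroup.eq_of_le_of_card_ge h1 (hKmax L ⟨hL, hAL, hLM⟩)).symm
  have hΘK : ∀ m : G, m ∈ M₀ → MulAut.conj m • D ≤ normalizer (D : Set G) → m ∈ K := by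
    intro m hm hmD
    have h1 : m ∈ L ⊓ M₀ := ⟨hNL (hΘE m hm hmD), hm⟩
    rw [hLK] at h1
    exact h1.1
  obtain ⟨E', hE'⟩ : ∃ E' : Subgroup G, E' = sSup ((fun m => MulAut.conj m • D) ''
      {m : G | m ∈ M₀ ∧ MulAut.conj m • D ≤ normalizer (D : Set G)}) := ⟨_, rfl⟩
  have hE'M₀ : E' ≤ M₀ := by
    rw [hE']
    apply sSup_le
    rintro _ ⟨m, ⟨hm, -⟩, rfl⟩
    exact smul_le_of_mem hm hDM₀
  have hE'sn : (E'.subgroupOf M₀).IsSubnormal := by
    rw [hE']
    apply Zip.subgroupOf_sSup_isSubnormal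
    · rintro _ ⟨m, ⟨hm, -⟩, rfl⟩
      exact smul_le_of_mem hm hDM₀
    · rintro _ ⟨m, ⟨hm, -⟩, rfl⟩
      have h1 := Wielandt.subgroupOf_smul_isSubnormal (MulAut.conj m) hDsnM₀
      rwa [smul_mem_self hm] at h1
  have hE'ND : E' ≤ normalizer (D : Set G) := by
    rw [hE']
    apply sSup_le
    rintro _ ⟨m, ⟨-, hmD⟩, rfl⟩
    exact hmD
  have hDE' : D ≤ E' := by
    rw [hE']
    apply le_sSup
    exact ⟨1, ⟨M₀.one_mem, by rw [conj_one_smul]; exact Subgroup.le_normalizer⟩,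
      conj_one_smul D⟩
  have hΘN : ∀ m : G, m ∈ M₀ → MulAut.conj m • D ≤ normalizer (D : Set G) →
      m ∈ normalizer (E' : Set G) := by
    intro m hm hmD
    rw [hE']
    apply Zip.mem_normalizer_sSup
    rintro _ ⟨m', ⟨hm', hm'D⟩, rfl⟩
    refine ⟨m * m', ⟨M₀.mul_mem hm hm', ?_⟩, conj_mul_smul m m' D⟩
    have h1 : MulAut.conj m' • D ≤ normalizer ((MulAut.conj m⁻¹ • D : Subgroup G) : Set G) :=
      PW01 _ _ (isCj_smul _ hDcj) (isCj_smul _ hDcj)
        (ha m⁻¹ (M₀.inv_mem hm) (hb m hm hmD)) (ha m' hm' hm'D)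
    have h2 := smul_le_normalizer (MulAut.conj m) h1
    rw [conj_smul_inv_smul, ← conj_mul_smul] at h2
    exact h2
  have hNΘ : ∀ y : G, y ∈ M₀ → y ∈ normalizer (E' : Set G) →
      MulAut.conj y • D ≤ normalizer (D : Set G) := by
    intro y hy hyN
    have h1 : MulAut.conj y • D ≤ MulAut.conj y • E' :=
      Subgroup.pointwise_smul_le_pointwise_smul_iff.mpr hDE'
    rw [(Wielandt.conj_smul_eq_iff y E').mpr hyN] at h1
    exact h1.trans hE'ND
  by_cases hM₀N : M₀ ≤ normalizer (E' : Set G)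
  · have h1 : M₀ ≤ K := fun y hy => hΘK y hy (hNΘ y hy (hM₀N hy))
    rcases h.1.le_iff.mp h1 with e | e
    · exact hK.1 e
    · exact hKM e
  · obtain ⟨y, hyM₀, hyne, hyN⟩ :=
      Wielandt.exists_conj_ne_le_normalizer_of_subgroupOf hE'M₀ hE'sn hM₀N
    apply hyne
    rw [Wielandt.conj_smul_eq_iff]
    apply hΘN y hyM₀
    have h1 : MulAut.conj y • D ≤ MulAut.conj y • E' :=
      Subgroup.pointwise_smul_le_pointwise_smul_iff.mpr hDE'
    have h2 : MulAut.conj y • E' ≤ M₀ := smul_le_of_mem hyM₀ hE'M₀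
    have h3 : MulAut.conj y • D ≤ K ⊓ M₀ := by
      intro z hz
      have hz' := h1 hz
      exact ⟨hΘK z (h2 hz') (hNΘ z (h2 hz') (hyN hz')), h2 hz'⟩
    exact PWK _ _ hDcj (isCj_smul _ hDcj) hDKM h3

theorem zp_all (A : Subgroup G) : ZP A := by
  have key : ∀ k : ℕ, ∀ A : Subgroup G, Nat.card G - Nat.card A = k → ZP A := by
    intro k
    induction k using Nat.strong_induction_on with
    | _ k ih =>
      intro A hk
      apply zp_step A (Nat.card A) rfl
      intro T hT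
      have hle : Nat.card T ≤ Nat.card G := Subgroup.card_le_card_group T
      exact ih (Nat.card G - Nat.card T) (by omega) T rfl
  exact key _ A rfl

theorem exists_perfect (A : Subgroup G) : ∀ K : Subgroup G, A ≤ K →
    ∃ B : Subgroup G, A ≤ B ∧ B ≤ K ∧ (B.subgroupOf K).IsSubnormal ∧
      normalClosure ((A.subgroupOf B : Subgroup ↥B) : Set ↥B) = ⊤ := by
  intro K
  refine WellFoundedLT.induction (motive := fun K : Subgroup G => A ≤ K →
    ∃ B : Subgroup G, A ≤ B ∧ B ≤ K ∧ (B.subgroupOf K).IsSubnormal ∧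
      normalClosure ((A.subgroupOf B : Subgroup ↥B) : Set ↥B) = ⊤) K ?_
  intro K ih hAK
  by_cases hN : normalClosure ((A.subgroupOf K : Subgroup ↥K) : Set ↥K) = ⊤
  · refine ⟨K, hAK, le_rfl, ?_, hN⟩
    rw [Subgroup.subgroupOf_self]
    exact IsSubnormal.top
  · obtain ⟨N, hNdef⟩ : ∃ N : Subgroup ↥K,
        N = normalClosure ((A.subgroupOf K : Subgroup ↥K) : Set ↥K) := ⟨_, rfl⟩
    have hNn : N.Normal := hNdef ▸ Subgroup.normalClosure_normal
    have hK₁K : N.map K.subtype ≤ K := Subgroup.map_subtype_le N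
    have hK₁lt : N.map K.subtype < K := by
      rw [lt_iff_le_and_ne]
      refine ⟨hK₁K, fun e => hN ?_⟩
      rw [← hNdef, eq_top_iff]
      intro y _
      have h1 : (y : G) ∈ N.map K.subtype := by rw [e]; exact y.2
      obtain ⟨z, hz, hzy⟩ := Subgroup.mem_map.mp h1
      have h2 : z = y := Subtype.ext hzy
      exact h2 ▸ hz
    have hAK₁ : A ≤ N.map K.subtype := by
      intro a ha
      refine Subgroup.mem_map.mpr ⟨⟨a, hAK ha⟩, ?_, rfl⟩
      rw [hNdef]
      apply Subgroup.subset_normalClosure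
      exact Subgroup.mem_subgroupOf.mpr ha
    obtain ⟨B, hAB, hBK₁, hBsn, hBp⟩ := ih _ hK₁lt hAK₁
    refine ⟨B, hAB, hBK₁.trans hK₁K, ?_, hBp⟩
    have h1 : ((B.subgroupOf K).subgroupOf ((N.map K.subtype).subgroupOf K)).IsSubnormal :=
      Wielandt.subgroupOf_subgroupOf_isSubnormal hK₁K hBsn
    have h2 : (N.map K.subtype).subgroupOf K = N := by
      rw [Subgroup.subgroupOf, Subgroup.comap_map_eq_self_of_injective K.subtype_injective]
    have h3 : ((N.map K.subtype).subgroupOf K).IsSubnormal := by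
      rw [h2]; exact Subgroup.Normal.isSubnormal hNn
    exact IsSubnormal.trans (Subgroup.comap_mono hBK₁) h1 h3

end Finite

theorem perfect_trans {A B H : Subgroup G} (hBH : B ≤ H)
    (h1 : normalClosure ((A.subgroupOf B : Subgroup ↥B) : Set ↥B) = ⊤)
    (h2 : normalClosure ((B.subgroupOf H : Subgroup ↥H) : Set ↥H) = ⊤) :
    normalClosure ((A.subgroupOf H : Subgroup ↥H) : Set ↥H) = ⊤ := by
  rw [eq_top_iff, ← h2]
  apply Subgroup.normalClosure_le_normal
  intro y hy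
  have hyB : (y : G) ∈ B := Subgroup.mem_subgroupOf.mp hy
  have h3 : normalClosure ((A.subgroupOf B : Subgroup ↥B) : Set ↥B) ≤
      (normalClosure ((A.subgroupOf H : Subgroup ↥H) : Set ↥H)).comap
        (Subgroup.inclusion hBH) := by
    apply Subgroup.normalClosure_le_normal
    intro b hb
    rw [SetLike.mem_coe, Subgroup.mem_comap]
    apply Subgroup.subset_normalClosure
    exact Subgroup.mem_subgroupOf.mpr (Subgroup.mem_subgroupOf.mp hb)
  rw [h1] at h3
  have h4 := h3 (Subgroup.mem_top (⟨(y : G), hyB⟩ : ↥B))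
  rw [Subgroup.mem_comap] at h4
  have e : Subgroup.inclusion hBH ⟨(y : G), hyB⟩ = y := Subtype.ext rfl
  rwa [e] at h4

/-- Generalized zipper lemma: if `A ≠ G` has normal closure `G` and the proper subgroups `H ≥ A`
with `⟨A^H⟩ = H` do not generate `G`, then `A` lies in a unique maximal subgroup. -/
theorem gen_zipper [Finite G] (A : Subgroup G) (hA : normalClosure (A : Set G) = ⊤)
    (hAG : A ≠ ⊤)
    (hY : sSup {H : Subgroup G | A ≤ H ∧ H ≠ ⊤ ∧
      normalClosure ((A.subgroupOf H : Subgroup ↥H) : Set ↥H) = ⊤} ≠ ⊤) :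
    ∃ M : Subgroup G, IsCoatom M ∧ A ≤ M ∧ ∀ K : Subgroup G, IsCoatom K → A ≤ K → K = M := by
  revert hA hAG hY
  refine WellFoundedGT.induction (motive := fun A : Subgroup G =>
    normalClosure (A : Set G) = ⊤ → A ≠ ⊤ →
    sSup {H : Subgroup G | A ≤ H ∧ H ≠ ⊤ ∧
      normalClosure ((A.subgroupOf H : Subgroup ↥H) : Set ↥H) = ⊤} ≠ ⊤ →
    ∃ M : Subgroup G, IsCoatom M ∧ A ≤ M ∧
      ∀ K : Subgroup G, IsCoatom K → A ≤ K → K = M) A ?_
  intro A ih hA hAG hY
  obtain ⟨M₀, hM₀, hYM₀⟩ := (eq_top_or_exists_le_coatom _).resolve_left hY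
  have hfam : ∀ H : Subgroup G, A ≤ H → H ≠ ⊤ →
      normalClosure ((A.subgroupOf H : Subgroup ↥H) : Set ↥H) = ⊤ → H ≤ M₀ :=
    fun H h1 h2 h3 => (le_sSup (show H ∈ {H : Subgroup G | A ≤ H ∧ H ≠ ⊤ ∧
      normalClosure ((A.subgroupOf H : Subgroup ↥H) : Set ↥H) = ⊤} from ⟨h1, h2, h3⟩)).trans hYM₀
  have hAM₀ : A ≤ M₀ := by
    apply hfam A le_rfl hAG
    rw [Subgroup.subgroupOf_self]
    exact Subgroup.normalClosure_eq_self ⊤
  have hH : Hyp A M₀ := by
    refine ⟨hM₀, hAM₀, ?_⟩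
    intro K hK hAK hKM
    obtain ⟨B, hAB, hBK, hBsn, hBp⟩ := exists_perfect A K hAK
    have hBtop : B ≠ ⊤ := fun e => hK.1 (top_le_iff.mp (e ▸ hBK))
    have hBM₀ : B ≤ M₀ := hfam B hAB hBtop hBp
    by_cases hBA : B = A
    · rw [← hBA]; exact hBsn
    · exfalso
      have hlt : A < B := lt_of_le_of_ne hAB (Ne.symm hBA)
      have hBn : normalClosure (B : Set G) = ⊤ := by
        rw [eq_top_iff, ← hA]
        exact Subgroup.normalClosure_mono (SetLike.coe_subset_coe.mpr hAB)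
      have hBY : sSup {H : Subgroup G | B ≤ H ∧ H ≠ ⊤ ∧
          normalClosure ((B.subgroupOf H : Subgroup ↥H) : Set ↥H) = ⊤} ≠ ⊤ := by
        intro e
        apply hY
        have h4 : sSup {H : Subgroup G | B ≤ H ∧ H ≠ ⊤ ∧
            normalClosure ((B.subgroupOf H : Subgroup ↥H) : Set ↥H) = ⊤} ≤
            sSup {H : Subgroup G | A ≤ H ∧ H ≠ ⊤ ∧
            normalClosure ((A.subgroupOf H : Subgroup ↥H) : Set ↥H) = ⊤} := by
          apply sSup_le_sSup
          rintro H ⟨h1, h2, h3⟩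
          exact ⟨hAB.trans h1, h2, perfect_trans h1 hBp h3⟩
        rw [e] at h4
        exact top_le_iff.mp h4
      obtain ⟨M, hM, hBM, huniq⟩ := ih B hlt hBn hBtop hBY
      exact hKM ((huniq K hK hBK).trans (huniq M₀ hM₀ hBM₀).symm)
  exact ⟨M₀, hM₀, hAM₀, fun K hK hAK => zp_all A M₀ hA hH K hK hAK⟩

end Cfsg.Agent.Lib.Helper24.GenZipper
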