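import Mathlib
import Cfsg.Agent.Lib.Lead.MaxStmt

/-!
# Piece ALTMAX of S2245 (lead's call)

A subgroup of the alternating group properly containing the stabilizer of `s`, for which `sᶜ`
is not a block, is everything (`s` nontrivial, `ncard s ≤ ncard sᶜ`, degree at least 5).
The proof follows Mathlib's `alternatingGroup.isCoatom_stabilizer_of_ncard_lt_ncard_compl`.
-/

set_option autoImplicit false

namespace Cfsg.Agent.Lib.Helper24.MaxALTMAX

open Equiv MulAction Cfsg.Agent.Lib.Lead.MaxStmt Cfsg.Agent.Lib.Lead.SylTwoSym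
open Equiv.Perm Set
open scoped Pointwise

theorem main : Cfsg.Agent.Lib.Lead.MaxStmt.AltMax := by
  intro Ω _ _ s G h0 hs hα hG not_isBlock_sc
  have hcard := ncard_add_ncard_compl s
  have h2 : 1 < s.ncard := Set.one_lt_ncard_iff_nontrivial.mpr h0
  have h1 : sᶜ.Nontrivial := by
    rw [← Set.one_lt_ncard_iff_nontrivial]
    exact lt_of_lt_of_le h2 hs
  suffices IsPreprimitive G Ω from alternatingGroup.subgroup_eq_top_of_isPreprimitive hα G hG.le
  have := G.isPretransitive_of_stabilizer_lt hG
    (alternatingGroup.exists_mem_stabilizer_smul_eq (Nat.le_of_succ_le hα))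
  apply IsPreprimitive.mk
  intro B hB
  rw [IsTrivialBlock, or_iff_not_imp_left]
  intro hB'
  -- a block contained in `sᶜ` is a subsingleton
  have hB_not_le_sc (B : Set Ω) (hB : IsBlock G B) (hBsc : B ⊆ sᶜ) : B.Subsingleton :=
    IsBlock.subsingleton_of_ssubset_compl_of_stabilizer_alternatingGroup_le h0
      (hBsc.ssubset_of_ne (by rintro rfl; exact not_isBlock_sc hB))
      hG.le hB
  -- a block contained in `s` is a subsingleton
  have hB_not_le_s (B : Set Ω) (hB : IsBlock G B) (hBs : B ⊆ s) : B.Subsingleton :=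
    have : IsPreprimitive (stabilizer G s) s :=
      alternatingGroup.stabilizer_subgroup_isPreprimitive h1 hG.le
    hB.subsingleton_of_stabilizer_lt_of_subset hB_not_le_sc hG hBs
  -- a block which is not a subsingleton contains `sᶜ`
  have hscB : sᶜ ⊆ B := by
    suffices IsMultiplyPretransitive (↥(alternatingGroup Ω)) Ω (s.ncard + 1) by
      have : ¬ B ⊆ s := fun h ↦ hB' (hB_not_le_s B hB h)
      have : ¬ B ⊆ sᶜ := fun h ↦ hB' (hB_not_le_sc B hB h)
      apply hB.compl_subset_of_stabilizer_le_of_not_subset_of_not_subset_compl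
        hG.le <;> grind
    have := alternatingGroup.isMultiplyPretransitive Ω
    apply isMultiplyPretransitive_of_le (n := Nat.card Ω - 2) _ (Nat.sub_le _ _)
    grind
  apply hB.eq_univ_of_card_lt
  have hne : B ≠ sᶜ := by rintro rfl; exact not_isBlock_sc hB
  have hlt : sᶜ.ncard < B.ncard :=
    Set.ncard_lt_ncard (hscB.ssubset_of_ne (Ne.symm hne)) (Set.toFinite B)
  grind

end Cfsg.Agent.Lib.Helper24.MaxALTMAX
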