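import Mathlib
import Cfsg.Agent.Lib.Lead.MaxStmt
import Cfsg.Agent.Lib.Lead.SylTwoAlt

/-!
# Piece AU5 of S2245 (lead's call)

Case II in degree 5: a Sylow 2-subgroup of `A_5` lies in a unique maximal subgroup, the
stabilizer of the fixed point `u`.
-/

set_option autoImplicit false

namespace Cfsg.Agent.Lib.Helper24.MaxAU5

open Equiv MulAction Cfsg.Agent.Lib.Lead.MaxStmt Cfsg.Agent.Lib.Lead.SylTwoSym
open scoped Pointwise

theorem main : Cfsg.Agent.Lib.Lead.MaxStmt.AltUniqueFive := by
  intro Q ι u hι hII R hR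
  obtain ⟨hfix, htrans⟩ := hII
  have hιu : ι u = u := by
    by_contra h
    have h1 := hfix _ (hι.swap_mem u h)
    rw [swap_apply_left] at h1
    exact h h1
  -- the even elements of `Q` are transitive on the points other than `u`
  have hRtrans : ∀ p q : Fin 5, p ≠ u → q ≠ u →
      ∃ g ∈ (R : Subgroup ↥(alternatingGroup (Fin 5))), (g : Perm (Fin 5)) p = q := by
    intro p q hp hq
    obtain ⟨g0, hg0, hg0p⟩ := htrans p q hp hq
    rcases Int.units_eq_one_or (Perm.sign g0) with hs | hs
    · exact ⟨⟨g0, Perm.mem_alternatingGroup.2 hs⟩, (hR _).2 hg0, hg0p⟩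
    · obtain ⟨r, hru, hrq, hrιq⟩ : ∃ r : Fin 5, r ≠ u ∧ r ≠ q ∧ r ≠ ι q := by
        by_contra hcon
        push Not at hcon
        have hsub : (Finset.univ : Finset (Fin 5)) ⊆ {u, q, ι q} := by
          intro r _
          by_cases h1 : r = u
          · simp [h1]
          by_cases h2 : r = q
          · simp [h2]
          · have := hcon r h1 h2
            simp [this]
        have h5 := Finset.card_le_card hsub
        have h3 : ({u, q, ι q} : Finset (Fin 5)).card ≤ 3 := Finset.card_le_three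
        simp at h5
        omega
      have hιr : ι r ≠ r := fun h => hru (hι.fix_unique r u h hιu)
      have ht := hι.swap_mem r hιr
      have hιrq : ι r ≠ q := by
        intro h
        apply hrιq
        rw [← h, hι.invol]
      refine ⟨⟨swap r (ι r) * g0, ?_⟩, (hR _).2 (Q.mul_mem ht hg0), ?_⟩
      · rw [Perm.mem_alternatingGroup, map_mul, hs, Perm.sign_swap hιr.symm]
        decide
      · show (swap r (ι r) * g0) p = q
        rw [Perm.mul_apply, hg0p, swap_apply_of_ne_of_ne (Ne.symm hrq) (Ne.symm hιrq)]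
  have hM0 : IsCoatom (stabilizer ↥(alternatingGroup (Fin 5)) ({u} : Set (Fin 5))) :=
    alternatingGroup.isCoatom_stabilizer_singleton (by simp) (Set.singleton_nonempty u)
      Set.subsingleton_singleton
  have hmem : ∀ g : ↥(alternatingGroup (Fin 5)),
      g ∈ stabilizer ↥(alternatingGroup (Fin 5)) ({u} : Set (Fin 5)) ↔ (g : Perm (Fin 5)) u = u := by
    intro g
    rw [stabilizer_singleton, mem_stabilizer_iff]
    rfl
  have hRM0 : (R : Subgroup ↥(alternatingGroup (Fin 5))) ≤
      stabilizer ↥(alternatingGroup (Fin 5)) ({u} : Set (Fin 5)) := by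
    intro r hr
    rw [hmem]
    exact hfix _ ((hR r).1 hr)
  refine ⟨_, ⟨hM0, hRM0⟩, ?_⟩
  rintro M ⟨hM, hRM⟩
  by_contra hne
  -- some element of `M` moves `u`
  have hnle : ¬ M ≤ stabilizer ↥(alternatingGroup (Fin 5)) ({u} : Set (Fin 5)) := by
    intro hle
    rcases eq_or_lt_of_le hle with h | h
    · exact hne h
    · exact hM0.1 (hM.2 _ h)
  obtain ⟨m, hmM, hmu⟩ := SetLike.not_le_iff_exists.1 hnle
  rw [hmem] at hmu
  -- `M` is transitive
  have horb : orbit M u = Set.univ := by
    rw [Set.eq_univ_iff_forall]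
    intro q
    by_cases hq : q = u
    · rw [hq]; exact mem_orbit_self u
    · obtain ⟨g, hg, hgq⟩ := hRtrans ((m : Perm (Fin 5)) u) q hmu hq
      refine ⟨⟨g * m, M.mul_mem (hRM hg) hmM⟩, ?_⟩
      show ((g * m : ↥(alternatingGroup (Fin 5))) : Perm (Fin 5)) u = q
      rw [Subgroup.coe_mul, Perm.mul_apply, hgq]
  have h5 : 5 ∣ Nat.card M := by
    have h1 := MulAction.index_stabilizer M u
    rw [horb, Set.ncard_univ] at h1
    have h2 := Subgroup.index_dvd_card (stabilizer M u)
    rw [h1] at h2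
    simpa using h2
  have hA : Nat.card ↥(alternatingGroup (Fin 5)) = 60 := by
    rw [nat_card_alternatingGroup]
    simp [Nat.factorial]
  have h4 : 4 ∣ Nat.card M := by
    have h1 : 2 ^ 2 ∣ Nat.card (R : Subgroup ↥(alternatingGroup (Fin 5))) :=
      R.pow_dvd_card_of_pow_dvd_card (by rw [hA]; decide)
    exact h1.trans (Subgroup.card_dvd_of_le hRM)
  have h20 : 20 ∣ Nat.card M :=
    (Nat.Coprime.mul_dvd_of_dvd_of_dvd (by decide : Nat.Coprime 4 5) h4 h5)
  obtain ⟨k, hk⟩ := h20
  have hidx := Subgroup.index_mul_card M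
  rw [hA, hk] at hidx
  have h3 : M.index * k = 3 := by
    have : 20 * (M.index * k) = 20 * 3 := by rw [Nat.mul_left_comm]; exact hidx
    exact Nat.eq_of_mul_eq_mul_left (by norm_num) this
  have h6 : M.index ≤ 3 := Nat.le_of_dvd (by norm_num) ⟨k, h3.symm⟩
  have h7 := Cfsg.Agent.Lib.Lead.SylTwoAlt.five_le_index M hM.1
  omega

end Cfsg.Agent.Lib.Helper24.MaxAU5
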