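import Mathlib
import Cfsg.Agent.Lib.Helper24.NatStmt

/-!
# S3009, piece DECH2 (helper24): a nonzero fixed point on `M / Wp` gives quadratic action
-/

set_option autoImplicit false

namespace Cfsg.Agent.Lib.Helper24.NatDECH2

open Cfsg.Agent.Lib.Helper24.NatStmt

universe u

section

variable {F : Type*} [Field F] {M : Type*} [AddCommGroup M] [DistribMulAction (SL2 F) M]

theorem dX_add (x : F) (a b : M) : dX x (a + b) = dX x a + dX x b := by
  unfold dX; rw [smul_add]; abel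

theorem dY_add (x : F) (a b : M) : dY x (a + b) = dY x a + dY x b := by
  unfold dY; rw [smul_add]; abel

theorem dX_neg (x : F) (a : M) : dX x (-a) = - dX x a := by
  unfold dX; rw [smul_neg]; abel

theorem dY_neg (x : F) (a : M) : dY x (-a) = - dY x a := by
  unfold dY; rw [smul_neg]; abel

theorem dX_zero (x : F) : dX x (0 : M) = 0 := by
  unfold dX; rw [smul_zero, sub_zero]

theorem dY_zero (x : F) : dY x (0 : M) = 0 := by
  unfold dY; rw [smul_zero, sub_zero]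

theorem dX_of_mem {m : M} (hm : m ∈ Wp F M) (x : F) : dX x m = 0 := by
  unfold dX; rw [hm x, sub_self]

theorem dY_of_mem {m : M} (hm : m ∈ Wm F M) (x : F) : dY x m = 0 := by
  unfold dY; rw [hm x, sub_self]

theorem ua_smul (x : F) (m : M) : ua x • m = m + dX x m := by
  unfold dX; abel

theorem ub_smul (x : F) (m : M) : ub x • m = m + dY x m := by
  unfold dY; abel

/-- `ub y * uw x = uw x * ua (-(x² y))` -/
theorem ub_mul_uw {x : F} (hx : x ≠ 0) (y : F) : ub y * uw x = uw x * ua (-(x ^ 2 * y)) := by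
  rw [uw_mul_ua hx]
  congr 2
  field_simp

/-- `ua y * uw x = uw x * ub (-(y / x²))` -/
theorem ua_mul_uw {x : F} (hx : x ≠ 0) (y : F) : ua y * uw x = uw x * ub (-(y / x ^ 2)) := by
  rw [uw_mul_ub hx]
  congr 2
  field_simp

theorem uw_smul_mem_Wm {x : F} (hx : x ≠ 0) {m : M} (hm : m ∈ Wp F M) : uw x • m ∈ Wm F M := by
  intro y
  rw [← mul_smul, ub_mul_uw hx, mul_smul, hm]

theorem uw_smul_mem_Wp {x : F} (hx : x ≠ 0) {m : M} (hm : m ∈ Wm F M) : uw x • m ∈ Wp F M := by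
  intro y
  rw [← mul_smul, ua_mul_uw hx, mul_smul, hm]

/-- `dY y (uw x • m) = uw x • dX (-(x² y)) m` -/
theorem dY_uw {x : F} (hx : x ≠ 0) (y : F) (m : M) :
    dY y (uw x • m) = uw x • dX (-(x ^ 2 * y)) m := by
  unfold dY dX
  rw [← mul_smul, ub_mul_uw hx, mul_smul, smul_sub]

/-- `dX y (uw x • m) = uw x • dY (-(y / x²)) m` -/
theorem dX_uw {x : F} (hx : x ≠ 0) (y : F) (m : M) :
    dX y (uw x • m) = uw x • dY (-(y / x ^ 2)) m := by
  unfold dY dX
  rw [← mul_smul, ua_mul_uw hx, mul_smul, smul_sub]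

/-- uniqueness of the decomposition -/
theorem decomp_unique (h : Wp F M ⊓ Wm F M = ⊥) {a a' b b' : M} (ha : a ∈ Wp F M)
    (ha' : a' ∈ Wp F M) (hb : b ∈ Wm F M) (hb' : b' ∈ Wm F M) (e : a + b = a' + b') :
    a = a' ∧ b = b' := by
  have h1 : a - a' = b' - b := by
    rw [sub_eq_sub_iff_add_eq_add, e]; abel
  have h2 : a - a' ∈ Wp F M ⊓ Wm F M :=
    ⟨(Wp F M).sub_mem ha ha', by rw [h1]; exact (Wm F M).sub_mem hb' hb⟩
  rw [h, AddSubgroup.mem_bot] at h2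
  have h3 : b' - b = 0 := by rw [← h1, h2]
  exact ⟨sub_eq_zero.1 h2, (sub_eq_zero.1 h3).symm⟩

/-- invariance under the generators gives invariance -/
theorem inv_of_gen (hg : ∀ g : SL2 F,
      g ∈ Subgroup.closure ({y : SL2 F | ∃ x : F, y = ua x} ∪ {y : SL2 F | ∃ x : F, y = ub x}))
    (N : AddSubgroup M) (ha : ∀ x : F, ∀ m ∈ N, ua x • m ∈ N)
    (hb : ∀ x : F, ∀ m ∈ N, ub x • m ∈ N) : ∀ (g : SL2 F), ∀ m ∈ N, g • m ∈ N := by
  have key : ∀ g : SL2 F, (∀ m ∈ N, g • m ∈ N) ∧ (∀ m ∈ N, g⁻¹ • m ∈ N) := by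
    intro g
    have h := hg g
    induction h using Subgroup.closure_induction with
    | mem y hy =>
      rcases hy with ⟨x, rfl⟩ | ⟨x, rfl⟩
      · exact ⟨ha x, by rw [ua_inv]; exact ha (-x)⟩
      · exact ⟨hb x, by rw [ub_inv]; exact hb (-x)⟩
    | one => exact ⟨fun m hm => by rwa [one_smul], fun m hm => by rwa [inv_one, one_smul]⟩
    | mul a b _ _ iha ihb =>
      refine ⟨fun m hm => ?_, fun m hm => ?_⟩
      · rw [mul_smul]; exact iha.1 _ (ihb.1 m hm)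
      · rw [mul_inv_rev, mul_smul]; exact ihb.2 _ (iha.2 m hm)
    | inv a _ iha => exact ⟨iha.2, by rw [inv_inv]; exact iha.1⟩
  exact fun g => (key g).1

end

theorem main : DecH2.{u} := by
  intro hGen F _ M _ _ hirr hdec hex
  obtain ⟨m₀, hm₀, hm₀ne, hm₀X⟩ := hex
  -- the two subgroups
  let W1m : AddSubgroup M :=
    { carrier := {m | m ∈ Wm F M ∧ ∀ x : F, dX x m ∈ Wp F M}
      zero_mem' := ⟨(Wm F M).zero_mem, fun x => by rw [dX_zero]; exact (Wp F M).zero_mem⟩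
      add_mem' := fun {a b} ha hb => ⟨(Wm F M).add_mem ha.1 hb.1, fun x => by
        rw [dX_add]; exact (Wp F M).add_mem (ha.2 x) (hb.2 x)⟩
      neg_mem' := fun {a} ha => ⟨(Wm F M).neg_mem ha.1, fun x => by
        rw [dX_neg]; exact (Wp F M).neg_mem (ha.2 x)⟩ }
  let W1p : AddSubgroup M :=
    { carrier := {m | m ∈ Wp F M ∧ ∀ x : F, dY x m ∈ Wm F M}
      zero_mem' := ⟨(Wp F M).zero_mem, fun x => by rw [dY_zero]; exact (Wm F M).zero_mem⟩
      add_mem' := fun {a b} ha hb => ⟨(Wp F M).add_mem ha.1 hb.1, fun x => by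
        rw [dY_add]; exact (Wm F M).add_mem (ha.2 x) (hb.2 x)⟩
      neg_mem' := fun {a} ha => ⟨(Wp F M).neg_mem ha.1, fun x => by
        rw [dY_neg]; exact (Wm F M).neg_mem (ha.2 x)⟩ }
  have hW1m : ∀ m : M, m ∈ W1m ↔ m ∈ Wm F M ∧ ∀ x : F, dX x m ∈ Wp F M := fun m => Iff.rfl
  have hW1p : ∀ m : M, m ∈ W1p ↔ m ∈ Wp F M ∧ ∀ x : F, dY x m ∈ Wm F M := fun m => Iff.rfl
  -- key facts
  have keyA : ∀ (x : F) (n : M), n ∈ W1m → ua x • n ∈ W1p ⊔ W1m := by
    intro x n hn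
    by_cases hx : x = 0
    · rw [hx, ua_zero, one_smul]
      exact AddSubgroup.mem_sup_right hn
    · have hn' := (hW1m n).1 hn
      have e1 : ua x • n = uw x • n + uw x • dX (-x) n := by
        conv_lhs => rw [ua_eq_uw (x := x)]
        rw [mul_smul, mul_smul, hn'.1 x⁻¹, ua_smul (-x) n, smul_add]
      have ha : uw x • n ∈ Wp F M := uw_smul_mem_Wp hx hn'.1
      have hb : uw x • dX (-x) n ∈ Wm F M := uw_smul_mem_Wm hx (hn'.2 (-x))
      have e2 : dX x n + n = uw x • n + uw x • dX (-x) n := by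
        rw [← e1, ua_smul]; abel
      have e3 := (decomp_unique hdec.1 (hn'.2 x) ha hn'.1 hb e2).1
      have h1 : uw x • n ∈ W1p := by
        refine (hW1p _).2 ⟨ha, fun y => ?_⟩
        rw [dY_uw hx]
        exact uw_smul_mem_Wm hx (hn'.2 _)
      rw [ua_smul, e3]
      exact (W1p ⊔ W1m).add_mem (AddSubgroup.mem_sup_right hn) (AddSubgroup.mem_sup_left h1)
  have keyB : ∀ (y : F) (n : M), n ∈ W1p → ub y • n ∈ W1p ⊔ W1m := by
    intro y n hn
    by_cases hy : y = 0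
    · rw [hy, ub_zero, one_smul]
      exact AddSubgroup.mem_sup_left hn
    · have hn' := (hW1p n).1 hn
      set x : F := -y⁻¹ with hxdef
      have hx : x ≠ 0 := neg_ne_zero.2 (inv_ne_zero hy)
      have hyx : y = -x⁻¹ := by
        rw [hxdef, inv_neg, inv_inv, neg_neg]
      have e1 : ub y • n = uw x • n + uw x • dY x⁻¹ n := by
        conv_lhs => rw [hyx, ub_eq_uw hx]
        rw [mul_smul, mul_smul, hn'.1 (-x), ub_smul x⁻¹ n, smul_add]
      have hb : uw x • n ∈ Wm F M := uw_smul_mem_Wm hx hn'.1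
      have ha : uw x • dY x⁻¹ n ∈ Wp F M := uw_smul_mem_Wp hx (hn'.2 x⁻¹)
      have e2 : n + dY y n = uw x • dY x⁻¹ n + uw x • n := by
        rw [← ub_smul, e1]; abel
      have e3 := (decomp_unique hdec.1 hn'.1 ha (hn'.2 y) hb e2).2
      have h1 : uw x • n ∈ W1m := by
        refine (hW1m _).2 ⟨hb, fun z => ?_⟩
        rw [dX_uw hx]
        exact uw_smul_mem_Wp hx (hn'.2 _)
      rw [ub_smul, e3]
      exact (W1p ⊔ W1m).add_mem (AddSubgroup.mem_sup_left hn) (AddSubgroup.mem_sup_right h1)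
  have invA : ∀ x : F, ∀ m ∈ W1p ⊔ W1m, ua x • m ∈ W1p ⊔ W1m := by
    intro x m hm
    obtain ⟨n₁, hn₁, n₂, hn₂, rfl⟩ := AddSubgroup.mem_sup.1 hm
    rw [smul_add, ((hW1p n₁).1 hn₁).1 x]
    exact (W1p ⊔ W1m).add_mem (AddSubgroup.mem_sup_left hn₁) (keyA x n₂ hn₂)
  have invB : ∀ x : F, ∀ m ∈ W1p ⊔ W1m, ub x • m ∈ W1p ⊔ W1m := by
    intro x m hm
    obtain ⟨n₁, hn₁, n₂, hn₂, rfl⟩ := AddSubgroup.mem_sup.1 hm
    rw [smul_add, ((hW1m n₂).1 hn₂).1 x]
    exact (W1p ⊔ W1m).add_mem (keyB x n₁ hn₁) (AddSubgroup.mem_sup_right hn₂)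
  have hinv := inv_of_gen (hGen F) (W1p ⊔ W1m) invA invB
  have htop : W1p ⊔ W1m = ⊤ := by
    rcases hirr _ hinv with h | h
    · exfalso
      have h1 : m₀ ∈ W1p ⊔ W1m := AddSubgroup.mem_sup_right ((hW1m m₀).2 ⟨hm₀, hm₀X⟩)
      rw [h, AddSubgroup.mem_bot] at h1
      exact hm₀ne h1
    · exact h
  intro x m
  have hm : m ∈ W1p ⊔ W1m := by rw [htop]; trivial
  obtain ⟨n₁, hn₁, n₂, hn₂, rfl⟩ := AddSubgroup.mem_sup.1 hm
  rw [dX_add, dX_of_mem ((hW1p n₁).1 hn₁).1, zero_add]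
  exact ((hW1m n₂).1 hn₂).2 x

end Cfsg.Agent.Lib.Helper24.NatDECH2
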