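import Mathlib
import Cfsg.Prelude.Def_Transfer
import Cfsg.Prelude.Def_BaumannBlocks
import Cfsg.Agent.Lib.Helper24.NatStmt

/-!
# S3009: glue from the abstract theorem `NatStmt.AbsThm` to the frozen statement (helper24)
-/

set_option autoImplicit false

namespace Cfsg.Agent.Lib.Helper24.NatGlue

open Cfsg.Agent.Lib.Helper24.NatStmt

universe u

/-- the module structure on `Additive A` given by a homomorphism into `MulAut A` -/
@[reducible] def modOfAut {H A : Type*} [Group H] [CommGroup A] (c : H →* MulAut A) :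
    DistribMulAction H (Additive A) where
  smul h m := Additive.ofMul (c h (Additive.toMul m))
  one_smul m := by
    show Additive.ofMul (c 1 (Additive.toMul m)) = m
    rw [map_one]; rfl
  mul_smul g h m := by
    show Additive.ofMul (c (g * h) (Additive.toMul m)) =
      Additive.ofMul (c g (Additive.toMul (Additive.ofMul (c h (Additive.toMul m)))))
    rw [map_mul]; rfl
  smul_zero h := by
    show Additive.ofMul (c h (Additive.toMul (0 : Additive A))) = 0
    rw [toMul_zero, map_one]; rfl
  smul_add h m m' := by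
    show Additive.ofMul (c h (Additive.toMul (m + m'))) =
      Additive.ofMul (c h (Additive.toMul m)) + Additive.ofMul (c h (Additive.toMul m'))
    rw [toMul_add, map_mul]; rfl

/-- conjugation by an element of the normalizer, as an automorphism of the subgroup -/
def conjAut {X : Type*} [Group X] (V : Subgroup X) (h : X)
    (hh : h ∈ Subgroup.normalizer (V : Set X)) : MulAut ↥V where
  toFun v := ⟨h * v * h⁻¹, (Subgroup.mem_normalizer_iff.1 hh v).1 v.2⟩
  invFun v := ⟨h⁻¹ * v * h, by
    have := (Subgroup.mem_normalizer_iff.1 hh (h⁻¹ * v * h)).2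
    apply this
    have e : h * (h⁻¹ * (v : X) * h) * h⁻¹ = v := by group
    rw [e]; exact v.2⟩
  left_inv v := by apply Subtype.ext; show h⁻¹ * (h * (v : X) * h⁻¹) * h = v; group
  right_inv v := by apply Subtype.ext; show h * (h⁻¹ * (v : X) * h) * h⁻¹ = v; group
  map_mul' v w := by
    apply Subtype.ext
    show h * ((v : X) * (w : X)) * h⁻¹ = h * (v : X) * h⁻¹ * (h * (w : X) * h⁻¹)
    group

theorem conjAut_coe {X : Type*} [Group X] (V : Subgroup X) (h : X)
    (hh : h ∈ Subgroup.normalizer (V : Set X)) (v : ↥V) :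
    ((conjAut V h hh v : ↥V) : X) = h * v * h⁻¹ := rfl

/-- the homomorphism `H → MulAut V` from a homomorphism `f : H → X` with image in `N(V)` -/
def conjHomV {X H : Type*} [Group X] [Group H] (V : Subgroup X) (f : H →* X)
    (hf : ∀ h, f h ∈ Subgroup.normalizer (V : Set X)) : H →* MulAut ↥V where
  toFun h := conjAut V (f h) (hf h)
  map_one' := by
    apply MulEquiv.ext
    intro v
    apply Subtype.ext
    rw [conjAut_coe, map_one]
    simp
  map_mul' g h := by
    apply MulEquiv.ext
    intro v
    apply Subtype.ext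
    rw [MulAut.mul_apply, conjAut_coe, conjAut_coe, conjAut_coe, map_mul]
    group

theorem conjHomV_coe {X H : Type*} [Group X] [Group H] (V : Subgroup X) (f : H →* X)
    (hf : ∀ h, f h ∈ Subgroup.normalizer (V : Set X)) (h : H) (v : ↥V) :
    ((conjHomV V f hf h v : ↥V) : X) = f h * v * (f h)⁻¹ := rfl

/-- **glue**: the frozen statement S3009 from the abstract theorem -/
theorem glue (hSyl : Syl) (hAbs : AbsThm.{u}) {X : Type u} [Group X] [Finite X] {p : ℕ}
    [Fact p.Prime] (G V : Subgroup X) (hV : Cfsg.IsElementaryAbelian p V)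
    (hGV : G ≤ Subgroup.normalizer (V : Set X)) (F : Type) [Field F] [Fintype F] (n : ℕ)
    (hF : Fintype.card F = p ^ n)
    (hG : Nonempty (↥G ≃* Matrix.SpecialLinearGroup (Fin 2) F))
    (hirr : ∀ U : Subgroup X, U ≤ V → G ≤ Subgroup.normalizer (U : Set X) → U = ⊥ ∨ U = V)
    (hnt : ⁅V, G⁆ ≠ ⊥) (S : Sylow p ↥G)
    (hyp : ⁅⁅V, (S : Subgroup ↥G).map G.subtype⁆, (S : Subgroup ↥G).map G.subtype⁆ = ⊥ ∨
      Nat.card ↥V ≤ Nat.card ↥(V ⊓ Subgroup.centralizer
        (((S : Subgroup ↥G).map G.subtype : Subgroup X) : Set X)) ^ 2) :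
    Cfsg.ActsAsSL2OnSection F ⊤ G V ⊥ := by
  classical
  obtain ⟨e₀⟩ := hG
  -- move the Sylow subgroup to the standard one
  let S' : Sylow p (SL2 F) := S.comapOfInjective e₀.symm.toMonoidHom e₀.symm.injective (by
    rw [MonoidHom.range_eq_top.2 e₀.symm.surjective]; exact le_top)
  have hS' : ∀ g : SL2 F, g ∈ S' ↔ e₀.symm g ∈ S := by
    intro g
    have hc : (S' : Subgroup (SL2 F)) = (S : Subgroup ↥G).comap e₀.symm.toMonoidHom :=
      Sylow.coe_comapOfInjective _ _ _ _
    constructor
    · intro h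
      have h1 : g ∈ (S' : Subgroup (SL2 F)) := h
      rw [hc] at h1
      exact h1
    · intro h
      have h1 : g ∈ (S : Subgroup ↥G).comap e₀.symm.toMonoidHom := h
      rw [← hc] at h1
      exact h1
  obtain ⟨k, hk⟩ := hSyl p F n hF S'
  let e : ↥G ≃* SL2 F := e₀.trans (MulAut.conj k)
  have he : ∀ s : ↥G, e s = k * e₀ s * k⁻¹ := fun s => rfl
  have heS : ∀ s : ↥G, s ∈ S ↔ ∃ x : F, e s = ua x := by
    intro s
    have h1 := hk (e₀ s)
    rw [hS', MulEquiv.symm_apply_apply] at h1
    exact h1
  have heS' : ∀ x : F, e.symm (ua x) ∈ S := by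
    intro x
    rw [heS]
    exact ⟨x, by rw [MulEquiv.apply_symm_apply]⟩
  -- the module
  letI : CommGroup ↥V := { (inferInstance : Group ↥V) with
    mul_comm := fun a b => hV.1.is_comm.comm a b }
  let f : SL2 F →* X := G.subtype.comp e.symm.toMonoidHom
  have hfG : ∀ g : SL2 F, f g ∈ G := fun g => (e.symm g).2
  have hf : ∀ g : SL2 F, f g ∈ Subgroup.normalizer (V : Set X) := fun g => hGV (hfG g)
  let c : SL2 F →* MulAut ↥V := conjHomV V f hf
  letI : DistribMulAction (SL2 F) (Additive ↥V) := modOfAut c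
  have hsmul : ∀ (g : SL2 F) (v : ↥V),
      ((Additive.toMul (g • (Additive.ofMul v : Additive ↥V)) : ↥V) : X) = f g * v * (f g)⁻¹ :=
    fun g v => rfl
  have hfe : ∀ g : ↥G, f (e g) = g := by
    intro g
    show ((e.symm (e g) : ↥G) : X) = g
    rw [MulEquiv.symm_apply_apply]
  -- `p`-torsion
  have hp : ∀ m : Additive ↥V, p • m = 0 := by
    intro m
    have h1 : (Additive.toMul m : ↥V) ^ p = 1 := by
      apply Subtype.ext
      rw [Subgroup.coe_pow, Subgroup.coe_one]
      exact hV.2 _ (Additive.toMul m).2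
    show Additive.ofMul ((Additive.toMul m) ^ p) = 0
    rw [h1]; rfl
  -- irreducibility
  have hirr' : Irr F (Additive ↥V) := by
    intro N hN
    let U₀ : Subgroup ↥V := AddSubgroup.toSubgroup' N
    let U : Subgroup X := U₀.map V.subtype
    have hUV : U ≤ V := by
      rintro _ ⟨v, -, rfl⟩
      exact v.2
    have hmemU : ∀ v : ↥V, (v : X) ∈ U ↔ Additive.ofMul v ∈ N := by
      intro v
      constructor
      · rintro ⟨w, hw, hwv⟩
        have : w = v := Subtype.ext hwv
        rw [← this]
        exact hw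
      · intro hv
        exact ⟨v, hv, rfl⟩
    have hconj : ∀ g : SL2 F, ∀ x ∈ U, f g * x * (f g)⁻¹ ∈ U := by
      rintro g _ ⟨v, hv, rfl⟩
      have h1 := hN g (Additive.ofMul v) hv
      have h2 := (hmemU (Additive.toMul (g • (Additive.ofMul v : Additive ↥V)))).2 h1
      rw [hsmul] at h2
      exact h2
    have hGU : G ≤ Subgroup.normalizer (U : Set X) := by
      intro g hg
      rw [Subgroup.mem_normalizer_iff]
      intro x
      have h1 := hfe ⟨g, hg⟩
      constructor
      · intro hx
        have := hconj (e ⟨g, hg⟩) x hx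
        rw [h1] at this
        exact this
      · intro hx
        have := hconj (e ⟨g, hg⟩)⁻¹ _ hx
        rw [map_inv, h1] at this
        have e2 : (g : X)⁻¹ * (g * x * g⁻¹) * (g⁻¹)⁻¹ = x := by group
        rw [e2] at this
        exact this
    rcases hirr U hUV hGU with h | h
    · left
      rw [eq_bot_iff]
      intro m hm
      have h1 : ((Additive.toMul m : ↥V) : X) ∈ U := (hmemU _).2 hm
      rw [h, Subgroup.mem_bot] at h1
      have h2 : (Additive.toMul m : ↥V) = 1 := Subtype.ext h1
      show m = 0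
      have : m = Additive.ofMul (Additive.toMul m) := rfl
      rw [this, h2]; rfl
    · right
      rw [eq_top_iff]
      intro m _
      have h1 : ((Additive.toMul m : ↥V) : X) ∈ U := by rw [h]; exact (Additive.toMul m).2
      exact (hmemU _).1 h1
  -- nontriviality
  have hnt' : Nontriv F (Additive ↥V) := by
    by_contra hcon
    apply hnt
    rw [Subgroup.commutator_eq_bot_iff_le_centralizer]
    intro v hv
    rw [Subgroup.mem_centralizer_iff]
    intro g hg
    by_contra hne
    apply hcon
    refine ⟨e ⟨g, hg⟩, Additive.ofMul ⟨v, hv⟩, ?_⟩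
    intro h
    have h1 := congrArg (fun m : Additive ↥V => ((Additive.toMul m : ↥V) : X)) h
    simp only [hsmul, hfe] at h1
    apply hne
    have h2 : (g : X) * v * g⁻¹ = v := h1
    rw [mul_inv_eq_iff_eq_mul] at h2
    exact h2
  -- the hypothesis
  set T : Subgroup X := (S : Subgroup ↥G).map G.subtype with hT
  have hfT : ∀ x : F, f (ua x) ∈ T := fun x => ⟨e.symm (ua x), heS' x, rfl⟩
  have hTf : ∀ t ∈ T, ∃ x : F, t = f (ua x) := by
    rintro _ ⟨s, hs, rfl⟩
    obtain ⟨x, hx⟩ := (heS s).1 hs
    refine ⟨x, ?_⟩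
    rw [← hx]
    exact (hfe s).symm
  have hyp' : Quad F (Additive ↥V) ∨
      Nat.card (Additive ↥V) ≤ Nat.card (Wp F (Additive ↥V)) ^ 2 := by
    rcases hyp with hq | hc
    · left
      intro x m y
      -- the commutator `c₀ = [f (ua x), v]` lies in `⁅V, T⁆`
      set v : ↥V := Additive.toMul m with hv
      have hc0 : f (ua x) * (v : X) * (f (ua x))⁻¹ * (v : X)⁻¹ ∈ ⁅V, T⁆ := by
        have h1 : (v : X) * f (ua x) * (v : X)⁻¹ * (f (ua x))⁻¹ ∈ ⁅V, T⁆ :=
          Subgroup.commutator_mem_commutator v.2 (hfT x)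
        have h2 := Subgroup.inv_mem _ h1
        have e1 : ((v : X) * f (ua x) * (v : X)⁻¹ * (f (ua x))⁻¹)⁻¹ =
            f (ua x) * (v : X) * (f (ua x))⁻¹ * (v : X)⁻¹ := by group
        rw [e1] at h2
        exact h2
      have h3 : (f (ua x) * (v : X) * (f (ua x))⁻¹ * (v : X)⁻¹) * f (ua y) *
          (f (ua x) * (v : X) * (f (ua x))⁻¹ * (v : X)⁻¹)⁻¹ * (f (ua y))⁻¹ = 1 := by
        have h3' : (f (ua x) * (v : X) * (f (ua x))⁻¹ * (v : X)⁻¹) * f (ua y) *
          (f (ua x) * (v : X) * (f (ua x))⁻¹ * (v : X)⁻¹)⁻¹ * (f (ua y))⁻¹ ∈ ⁅⁅V, T⁆, T⁆ :=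
          Subgroup.commutator_mem_commutator hc0 (hfT y)
        rw [hq, Subgroup.mem_bot] at h3'
        exact h3'
      have h4 : f (ua y) * (f (ua x) * (v : X) * (f (ua x))⁻¹ * (v : X)⁻¹) * (f (ua y))⁻¹ =
          f (ua x) * (v : X) * (f (ua x))⁻¹ * (v : X)⁻¹ := by
        have h5 := mul_inv_eq_iff_eq_mul.1 (mul_inv_eq_one.1 h3)
        rw [← h5, mul_inv_cancel_right]
      -- translate
      have h6 : ((Additive.toMul (dX x m) : ↥V) : X) =
          f (ua x) * (v : X) * (f (ua x))⁻¹ * (v : X)⁻¹ := by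
        show ((Additive.toMul (ua x • m) / Additive.toMul m : ↥V) : X) = _
        rw [Subgroup.coe_div, div_eq_mul_inv]
        rfl
      have h7 : ((Additive.toMul (ua y • dX x m) : ↥V) : X) =
          ((Additive.toMul (dX x m) : ↥V) : X) := by
        have := hsmul (ua y) (Additive.toMul (dX x m))
        rw [show (Additive.ofMul (Additive.toMul (dX x m)) : Additive ↥V) = dX x m from rfl]
          at this
        rw [this, h6]
        exact h4
      have h8 : (Additive.toMul (ua y • dX x m) : ↥V) = Additive.toMul (dX x m) :=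
        Subtype.ext h7
      exact h8
    · right
      have h1 : Nat.card (Additive ↥V) = Nat.card ↥V := rfl
      rw [h1]
      refine le_trans hc (Nat.pow_le_pow_left ?_ 2)
      let φ : ↥(V ⊓ Subgroup.centralizer (T : Set X)) → ↥(Wp F (Additive ↥V)) := fun z =>
        ⟨Additive.ofMul (⟨(z : X), z.2.1⟩ : ↥V), by
          intro x
          have h2 : ((Additive.toMul (ua x • (Additive.ofMul (⟨(z : X), z.2.1⟩ : ↥V) :
              Additive ↥V)) : ↥V) : X) = (z : X) := by
            rw [hsmul]
            have h3 := Subgroup.mem_centralizer_iff.1 z.2.2 (f (ua x)) (hfT x)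
            show f (ua x) * (z : X) * (f (ua x))⁻¹ = z
            rw [h3]; group
          have h4 : (Additive.toMul (ua x • (Additive.ofMul (⟨(z : X), z.2.1⟩ : ↥V) :
              Additive ↥V)) : ↥V) = ⟨(z : X), z.2.1⟩ := Subtype.ext h2
          exact h4⟩
      have hφ : Function.Injective φ := by
        intro z z' h
        have h2 := congrArg (fun w : ↥(Wp F (Additive ↥V)) =>
          ((Additive.toMul (w : Additive ↥V) : ↥V) : X)) h
        exact Subtype.ext h2
      exact Nat.card_le_card_of_injective φ hφ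
  -- apply the abstract theorem
  obtain ⟨ψ, hψ⟩ := hAbs p F n hF (Additive ↥V) hp hirr' hnt' hyp'
  let ψm : ↥V →* Multiplicative (Fin 2 → F) :=
    { toFun := fun v => Multiplicative.ofAdd (ψ (Additive.ofMul v))
      map_one' := by
        show Multiplicative.ofAdd (ψ 0) = 1
        rw [map_zero]; rfl
      map_mul' := fun a b => by
        show Multiplicative.ofAdd (ψ (Additive.ofMul a + Additive.ofMul b)) = _
        rw [map_add]; rfl }
  refine ⟨hGV, bot_le, e.toMonoidHom, ψm, MonoidHom.range_eq_top.2 e.surjective, ?_, ?_, ?_⟩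
  · intro y
    obtain ⟨m, hm⟩ := ψ.surjective (Multiplicative.toAdd y)
    exact ⟨Additive.toMul m, by show Multiplicative.ofAdd (ψ m) = y; rw [hm]; rfl⟩
  · intro u
    rw [Subgroup.mem_bot]
    constructor
    · intro h
      have h1 : ψ (Additive.ofMul u) = 0 := h
      have h2 : (Additive.ofMul u : Additive ↥V) = 0 := by
        apply ψ.injective
        rw [h1, map_zero]
      have h3 : u = 1 := h2
      rw [h3]; rfl
    · intro h
      have h3 : u = 1 := Subtype.ext h
      rw [h3]
      exact map_one ψm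
  · intro g u
    refine ⟨Additive.toMul (e g • (Additive.ofMul u : Additive ↥V)), ?_, ?_⟩
    · rw [hsmul, hfe]
    · exact hψ (e g) (Additive.ofMul u)

end Cfsg.Agent.Lib.Helper24.NatGlue
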