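import Mathlib
import Cfsg.Agent.Lib.Helper52.SpStmt
import Cfsg.Agent.S5160

/-!
# S5171, piece CRITP (helper24): the simplicity criterion `Crit` from its parts
-/

set_option autoImplicit false

namespace Cfsg.Agent.Lib.Helper24.SpCRITP

open Cfsg.Agent.Lib.Helper52.SpStmt

universe u

/-- **[CRITP]** the criterion from its parts -/
theorem main : Cfsg.Agent.Lib.Helper52.SpStmt.CritOfParts.{u} := by
  intro hSC hRad hAut hFN hCen G _ _ p _ S ℛ h
  refine Cfsg.Agent.S5160.result p S h.ne_bot ?_ ?_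
  · intro T hT
    obtain ⟨hTS, hTc⟩ := hSC (S : Subgroup G) T hT
    by_cases hbot : T = ⊥
    · exact Or.inl hbot
    · exact Or.inr (h.closed T hTS hbot hTc)
  · refine hAut (S : Subgroup G)
      (fun R => (Cfsg.groupFusionSystem (S : Subgroup G)).IsFullyNormalized R ∧
        (Cfsg.groupFusionSystem (S : Subgroup G)).IsRadical p R ∧
        (Cfsg.groupFusionSystem (S : Subgroup G)).IsCentric R)
      (fun R => Subgroup.closure {g : G | g ∈ Subgroup.normalizer (R : Set G) ∧
        ∃ k : ℕ, orderOf g = p ^ k}) ?_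
    refine le_trans h.norm_gen (Subgroup.closure_mono ?_)
    rintro x ⟨hxN, R, hR, hxR⟩
    refine ⟨hxN, R, ⟨?_, ?_, ?_⟩, hxR⟩
    · exact hFN (S : Subgroup G) R (h.rad_le R hR) (h.rad_normal R hR)
    · exact hRad p S R (h.rad_le R hR) (h.rad_normal R hR) (h.rad_cent R hR) (h.rad_opp R hR)
    · exact hCen (S : Subgroup G) R (h.rad_le R hR) (h.rad_cent R hR)

end Cfsg.Agent.Lib.Helper24.SpCRITP
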