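import Mathlib
import Cfsg.Agent.Lib.Helper52.SpStmt
import Cfsg.Agent.Lib.Helper47.PslA3

/-!
# S5171, piece MAP (helper24): `CritData` is transported by automorphisms
-/

set_option autoImplicit false

namespace Cfsg.Agent.Lib.Helper24.SpMAP

open Cfsg.Agent.Lib.Helper52.SpStmt Cfsg.Agent.Lib.Helper47.PslA3

universe u

/-- transport of `CritData` along an automorphism -/
theorem map_equiv {G : Type u} [Group G] {p : ℕ} {S : Subgroup G}
    {ℛ : Set (Subgroup G)} (h : CritData p S ℛ) (φ : G ≃* G) :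
    CritData p (S.map φ.toMonoidHom)
      ((fun R : Subgroup G => R.map φ.toMonoidHom) '' ℛ) where
  ne_bot := by
    rw [Ne, Subgroup.map_eq_bot_iff_of_injective S φ.injective]
    exact h.ne_bot
  closed := by
    intro T hT hne hcl
    have hT' : T.comap φ.toMonoidHom ≤ S := by
      intro x hx
      obtain ⟨y, hy, hyx⟩ := hT hx
      have : y = x := φ.injective hyx
      rw [← this]; exact hy
    have hne' : T.comap φ.toMonoidHom ≠ ⊥ := by
      intro hbot
      apply hne
      rw [Subgroup.eq_bot_iff_forall] at hbot ⊢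
      intro x hx
      have h1 := hbot (φ.symm x) (by show φ (φ.symm x) ∈ T; simpa using hx)
      have h2 := congrArg φ h1
      simpa using h2
    have hcl' : ∀ t ∈ T.comap φ.toMonoidHom, ∀ k : G, k * t * k⁻¹ ∈ S →
        k * t * k⁻¹ ∈ T.comap φ.toMonoidHom := by
      intro t ht k hk
      show φ (k * t * k⁻¹) ∈ T
      rw [map_mul, map_mul, map_inv]
      apply hcl _ ht
      refine ⟨k * t * k⁻¹, hk, ?_⟩
      show φ (k * t * k⁻¹) = _
      rw [map_mul, map_mul, map_inv]
      rfl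
    have h1 := h.closed _ hT' hne' hcl'
    apply le_antisymm hT
    rintro _ ⟨s, hs, rfl⟩
    have hs' : s ∈ T.comap φ.toMonoidHom := by rw [h1]; exact hs
    exact hs'
  rad_le := by
    rintro _ ⟨R, hR, rfl⟩
    exact Subgroup.map_mono (h.rad_le R hR)
  rad_normal := by
    rintro _ ⟨R, hR, rfl⟩ _ ⟨s, hs, rfl⟩ _ ⟨r, hr, rfl⟩
    exact ⟨s * r * s⁻¹, h.rad_normal R hR s hs r hr, by simp⟩
  rad_cent := by
    rintro _ ⟨R, hR, rfl⟩ k hk
    have h1 : φ.symm k ∈ R := by
      apply h.rad_cent R hR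
      intro r hr
      apply φ.injective
      rw [map_mul, map_mul, MulEquiv.apply_symm_apply]
      exact hk _ ⟨r, hr, rfl⟩
    exact ⟨φ.symm k, h1, by simp⟩
  rad_opp := by
    rintro _ ⟨R, hR, rfl⟩
    obtain ⟨n, hn, hnx⟩ := h.rad_opp R hR
    refine ⟨φ n, map_mem_normalizer φ R n hn, ?_⟩
    rintro _ ⟨x, hx, rfl⟩ hx2
    refine ⟨x, hnx x hx ?_, rfl⟩
    obtain ⟨y, hy, hyx⟩ := hx2
    have e : y = n * x * n⁻¹ := by
      apply φ.injective
      rw [map_mul, map_mul, map_inv]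
      exact hyx
    rw [← e]; exact hy
  norm_gen := by
    intro k hk
    have hk' : φ.symm k ∈ Subgroup.normalizer (S : Set G) := by
      have := map_mem_normalizer φ.symm (S.map φ.toMonoidHom) k hk
      rwa [map_symm_map] at this
    have h1 := h.norm_gen hk'
    have h2 : φ (φ.symm k) ∈ (Subgroup.closure {h' : G | h' ∈ Subgroup.normalizer (S : Set G) ∧
        ∃ R ∈ ℛ, h' ∈ Subgroup.closure {k : G | k ∈ Subgroup.normalizer (R : Set G) ∧
          ∃ e : ℕ, orderOf k = p ^ e}}).map φ.toMonoidHom := ⟨_, h1, rfl⟩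
    rw [MulEquiv.apply_symm_apply, MonoidHom.map_closure] at h2
    refine Subgroup.closure_mono ?_ h2
    rintro _ ⟨h', ⟨hh'N, R, hR, hh'R⟩, rfl⟩
    refine ⟨map_mem_normalizer φ S h' hh'N, R.map φ.toMonoidHom, ⟨R, hR, rfl⟩, ?_⟩
    have h3 : φ h' ∈ (Subgroup.closure {k : G | k ∈ Subgroup.normalizer (R : Set G) ∧
        ∃ e : ℕ, orderOf k = p ^ e}).map φ.toMonoidHom := ⟨_, hh'R, rfl⟩
    rw [MonoidHom.map_closure] at h3
    refine Subgroup.closure_mono ?_ h3
    rintro _ ⟨k', ⟨hk'N, e, he⟩, rfl⟩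
    refine ⟨map_mem_normalizer φ R k' hk'N, e, ?_⟩
    rw [← he]
    exact MulEquiv.orderOf_eq φ k'

/-- **[MAP]** the data is transported by inner automorphisms -/
theorem main : Cfsg.Agent.Lib.Helper52.SpStmt.MapConj.{u} := by
  intro G _ p S ℛ h g
  exact map_equiv h (MulAut.conj g)

end Cfsg.Agent.Lib.Helper24.SpMAP
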